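import Mathlib
import Cfsg.Prelude.Def_ChevG2
import Cfsg.Prelude.Def_Classical
import Cfsg.Agent.GT.PConstrained
import Cfsg.Agent.GT.CoprimeProd
import Cfsg.Agent.GT.Conj
import Cfsg.Agent.Loc.KMDih
import Cfsg.Agent.Gr6.W1

/-!
Groups of characteristic 2 type whose 3-local subgroups are 3-constrained: the stages of the proof.
-/

set_option autoImplicit false
set_option linter.unusedSectionVars false

namespace Cfsg.Agent.M23T

open Subgroup Cfsg.Agent.GT Cfsg.Agent.LX Cfsg.Agent.Gr6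

variable {G : Type*} [Group G]

/-- The largest normal subgroup of order prime to 3 of the centraliser of `x`. -/
abbrev O3 (x : G) : Subgroup G := pPrimeCoreOf 3 (centralizer ({x} : Set G))

/-- The same for a subgroup. -/
abbrev K3 (E : Subgroup G) : Subgroup G := pPrimeCoreOf 3 (centralizer (E : Set G))

/-- Conjugate of a subgroup. -/
abbrev cjs (g : G) (T : Subgroup G) : Subgroup G := T.map (MulAut.conj g).toMonoidHom

/-- The centraliser of `x` has 3-rank at least 3. -/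
def Good (x : G) : Prop := ¬ PRankLE 3 2 (centralizer ({x} : Set G))

/-- Elementary abelian of order 9. -/
structure E9 (E : Subgroup G) : Prop where
  elem : IsElementaryAbelian 3 E
  card : Nat.card E = 9

/-- First stage. -/
structure H0 (G : Type*) [Group G] : Prop where
  c2 : IsCharacteristicTwoType G
  con : ∀ x : G, orderOf x = 3 → IsPConstrained 3 (centralizer ({x} : Set G))
  nrm : ∀ P : Sylow 3 G, ∃ U : Subgroup G, U ≤ P ∧ E9 U ∧ (P : Subgroup G) ≤ normalizer (U : Set G) ∧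
    ∀ u ∈ U, Good u
  good : ∀ x : G, orderOf x = 3 → Good x → Odd (Nat.card (O3 x))

/-- A 2-subgroup normalised by `E`. -/
def Inv (E T : Subgroup G) : Prop := IsPGroup 2 T ∧ E ≤ normalizer (T : Set G)

/-- A maximal one. -/
def Mx (E T : Subgroup G) : Prop := Maximal (Inv E) T

/-- `E` is a maximal elementary abelian 3-subgroup, of order 9, and `ζ ∈ E` has no fixed points on
the `E`-invariant 2-subgroups. -/
structure Bad (E : Subgroup G) (ζ : G) : Prop where
  e9 : E9 E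
  mem : ζ ∈ E
  ord : orderOf ζ = 3
  max : ∀ x ∈ centralizer (E : Set G), x ^ 3 = 1 → x ∈ E
  fpf : ∀ T, Inv E T → T ⊓ centralizer ({ζ} : Set G) = ⊥
  core : ∀ b ∈ E, b ≠ 1 → ∀ T, Inv E T → T ≤ centralizer ({b} : Set G) → T ≤ O3 b

/-- Second stage; `N` is `O_{3',3}(C(D))`. -/
structure H2 (G : Type*) [Group G] : Prop where
  c2 : IsCharacteristicTwoType G
  fa : ∀ D : Subgroup G, D ≠ ⊥ → IsElementaryAbelian 3 D → ∃ N : Subgroup G, D ≤ N ∧
    N ≤ centralizer (D : Set G) ∧ centralizer (D : Set G) ≤ normalizer (N : Set G) ∧ Odd (Nat.card N) ∧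
    ∀ R ≤ N, IsPGroup 3 R → ¬ 3 ∣ R.relIndex N →
      centralizer (D : Set G) ⊓ centralizer (R : Set G) ≤ N

/-- Third stage. -/
structure H3 (G : Type*) [Group G] : Prop where
  c2 : IsCharacteristicTwoType G
  rk : TwoLocalPRankLE 3 2 G
  four : ∀ x : G, orderOf x = 3 → ∀ U : Subgroup G, IsElementaryAbelian 2 U →
    U ≤ centralizer ({x} : Set G) → Nat.card U ≤ 4
  two : ∀ E : Subgroup G, E9 E → ∀ U : Subgroup G, IsElementaryAbelian 2 U →
    U ≤ centralizer (E : Set G) → Nat.card U ≤ 2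
  d81 : 81 ∣ Nat.card G
  r2 : ¬ PRankLE 2 2 G

/-- An involution centralising an elementary abelian group of order 9. -/
structure Z9 (z : G) : Prop where
  ord : orderOf z = 2
  ex : ∃ E : Subgroup G, E9 E ∧ E ≤ centralizer ({z} : Set G)

/-- The local data at such an involution. -/
structure Fn (z : G) : Prop where
  bg : WP.Bg z
  card : Nat.card (QQ z) = 32 ∨ Nat.card (QQ z) = 128 ∨ Nat.card (QQ z) = 512
  fix : ∀ x : G, orderOf x = 3 → Commute z x → ∀ y ∈ QQ z, y * y = 1 → Commute x y → y = 1 ∨ y = z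
  le8 : ∀ x : G, orderOf x = 3 → Commute z x →
    Nat.card (QQ z ⊓ centralizer ({x} : Set G) : Subgroup G) ≤ 8

/-- Last stage. -/
structure H4 (G : Type*) [Group G] : Prop extends H3 G where
  fn : ∀ z : G, Z9 z → Fn z

/-- The conclusion. -/
def Concl (G : Type*) [Group G] : Prop :=
  ∃ (F : Type) (_ : Field F) (_ : Fintype F), Fintype.card F = 3 ∧
    (Nonempty (G ≃* ↥(Lie.chevG2.group F)) ∨ Nonempty (G ≃* PSp 2 F) ∨
      ∃ (K : Type) (_ : Field K) (_ : Fintype K), Fintype.card K = 9 ∧ Nonempty (G ≃* PSU 4 K 3))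

instance : Fact (Nat.Prime 3) := ⟨Nat.prime_three⟩

variable {E T T' I N Y Y' D U : Subgroup G} {ζ b k : G}

theorem mem_cjs {g x : G} : x ∈ cjs g T ↔ g⁻¹ * x * g ∈ T := by
  refine ⟨?_, fun h => ⟨_, h, by simp [mul_assoc]⟩⟩
  rintro ⟨y, hy, rfl⟩
  simpa [mul_assoc] using hy

theorem cjs_one (T : Subgroup G) : cjs 1 T = T := by ext; rw [mem_cjs, inv_one, one_mul, mul_one]

theorem cjs_mul (g h : G) (T : Subgroup G) : cjs (g * h) T = cjs g (cjs h T) := by
  ext; simp only [mem_cjs, mul_assoc, mul_inv_rev]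

theorem cjs_of_mem (h : k ∈ normalizer (T : Set G)) : cjs k T = T := by
  ext x
  rw [mem_cjs, mem_normalizer_iff.1 h, mul_assoc, mul_assoc, mul_inv_cancel, mul_one, mul_inv_cancel_left]

theorem Inv.cjs (h : Inv E T) (hk : k ∈ centralizer (E : Set G)) : Inv E (cjs k T) := by
  refine ⟨h.1.map _, fun e he => mem_normalizer_iff.2 fun x => ?_⟩
  have c := mem_centralizer_iff.1 hk e he
  have c' : k⁻¹ * e = e * k⁻¹ := (show Commute e k from c).inv_right.eq.symm
  have c'' : e⁻¹ * k = k * e⁻¹ := (show Commute e k from c).inv_left.eq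
  rw [mem_cjs, mem_cjs, mem_normalizer_iff.1 (h.2 he)]
  rw [show k⁻¹ * (e * x * e⁻¹) * k = (k⁻¹ * e) * x * (e⁻¹ * k) by group, c', c'']
  rw [show e * k⁻¹ * x * (k * e⁻¹) = e * (k⁻¹ * x * k) * e⁻¹ by group]

theorem Mx.cjs (h : Mx E T) (hk : k ∈ centralizer (E : Set G)) : Mx E (cjs k T) := by
  refine ⟨h.1.cjs hk, fun S hS hle => ?_⟩
  have h1 : T ≤ M23T.cjs k⁻¹ S := by
    rw [← cjs_one T, ← inv_mul_cancel k, cjs_mul]; exact map_mono hle
  have h2 := map_mono (f := (MulAut.conj k).toMonoidHom) (h.2 (hS.cjs (inv_mem hk)) h1)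
  change M23T.cjs k (M23T.cjs k⁻¹ S) ≤ _ at h2
  rwa [← cjs_mul, mul_inv_cancel, cjs_one] at h2

theorem Inv.inf (h : Inv E T) (hY : E ≤ normalizer (Y : Set G)) : Inv E (T ⊓ Y) :=
  ⟨h.1.to_inf_left, CopAct.le_normalizer_inf h.2 hY⟩

theorem Inv.sup (h : Inv E T) (h' : Inv E T') (hn : T ≤ normalizer (T' : Set G)) : Inv E (T ⊔ T') :=
  ⟨h.1.to_sup_of_normal_right' h'.1 hn, CopAct.le_normalizer_sup h.2 h'.2⟩

variable [Finite G]

theorem Inv.exists_mx (h : Inv E T) : ∃ T', Mx E T' ∧ T ≤ T' :=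
  let ⟨T', h1, h2⟩ := Finite.exists_le_maximal h; ⟨T', h2, h1⟩

theorem E9.norm_cen (h : E9 E) (hb : b ∈ E) : E ≤ normalizer (centralizer ({b} : Set G) : Set G) :=
  (h.elem.le_centralizer.trans (centralizer_le (Set.singleton_subset_iff.2 hb))).trans le_normalizer

/-- Two invariant 2-subgroups of `C(b)` fit together after conjugation by an element of `K3 E`. -/
theorem Bad.same (h : Bad E ζ) (hb : b ∈ E) (hb1 : b ≠ 1) (hI : Inv E I) (hE : E ≤ N)
    (hN : N ≤ normalizer (I : Set G)) (hY : Inv E Y) (hY' : Inv E Y') (h1 : Y ≤ N ⊓ centralizer ({b} : Set G))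
    (h2 : Y' ≤ N ⊓ centralizer ({b} : Set G)) :
    ∃ k ∈ K3 E, ∃ S, Inv E S ∧ Y ⊔ I ≤ S ∧ cjs k (Y' ⊔ I) ≤ S := by
  have hEb : E ≤ centralizer ({b} : Set G) :=
    h.e9.elem.le_centralizer.trans (centralizer_le (Set.singleton_subset_iff.2 hb))
  have hn : E ≤ normalizer ((O3 b ⊓ N : Subgroup G) : Set G) :=
    CopAct.le_normalizer_inf (hEb.trans (le_normalizer_pPrimeCoreOf _)) (hE.trans le_normalizer)
  have hc : (Nat.card E).Coprime (Nat.card (O3 b ⊓ N : Subgroup G)) := by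
    rw [h.e9.card, show 9 = 3 ^ 2 from rfl]
    exact ((coprime_card_pPrimeCoreOf 3 _).coprime_dvd_left (card_dvd_of_le inf_le_left)).symm.pow_left 2
  have hs : Group.IsSolvable E ∨ Group.IsSolvable (O3 b ⊓ N : Subgroup G) :=
    .inl (have := h.e9.elem.isPGroup.isNilpotent; inferInstance)
  obtain ⟨S, s1, s2, s3, s4, s5⟩ := CopAct.exists_invariant_sylowIn_ge hn hc hs
    (le_inf (h.core b hb hb1 Y hY (h1.trans inf_le_right)) (h1.trans inf_le_left)) hY.1 hY.2
  obtain ⟨c, c1, c2⟩ := CopAct.exists_centralizer_conj_le_sylowIn hn hc hs s2 s3 s4 s5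
    (le_inf (h.core b hb hb1 Y' hY' (h2.trans inf_le_right)) (h2.trans inf_le_left)) hY'.1 hY'.2
  refine ⟨c, pPrimeCoreOf_inf_le (centralizer_le (Set.singleton_subset_iff.2 hb)) ⟨c1.1.1, c1.2⟩, S ⊔ I,
    Inv.sup ⟨s3, s5⟩ hI ((s2.trans inf_le_right).trans hN), sup_le_sup_right s1 _, ?_⟩
  rw [cjs, Subgroup.map_sup]
  refine sup_le_sup ?_ (cjs_of_mem (hN c1.1.2)).le
  rintro _ ⟨u, hu, rfl⟩
  exact c2 u hu

/-- A 2-subgroup of `C(D)` acts faithfully on a 3-subgroup of `C(D)`. -/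
theorem H2.exists_R (h : H2 G) (h0 : D ≠ ⊥) (hD : IsElementaryAbelian 3 D) (hU : IsPGroup 2 U)
    (hUD : U ≤ centralizer (D : Set G)) : ∃ R : Subgroup G, IsPGroup 3 R ∧ D ≤ R ∧
      R ≤ centralizer (D : Set G) ∧ U ≤ normalizer (R : Set G) ∧ U ⊓ centralizer (R : Set G) = ⊥ := by
  obtain ⟨N, n1, n2, n3, n4, n5⟩ := h.fa D h0 hD
  obtain ⟨m, hm⟩ := hU.exists_card_eq
  have hc : (Nat.card U).Coprime (Nat.card N) := by
    rw [hm]; exact (Nat.coprime_two_left.2 n4).pow_left m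
  obtain ⟨R, r1, r2, r3, r4, r5⟩ := CopAct.exists_invariant_sylowIn_ge (hUD.trans n3) hc
    (.inl (have := hU.isNilpotent; inferInstance)) n1 hD.isPGroup (hUD.trans (centralizer_le_normalizer _))
  refine ⟨R, r3, r1, r2.trans n2, r5, eq_bot_of_card_eq _ ((Nat.coprime_self _).1 ?_)⟩
  exact (hc.coprime_dvd_left (card_dvd_of_le inf_le_left)).coprime_dvd_right
    (card_dvd_of_le ((inf_le_inf_right _ hUD).trans (n5 R r2 r3 r4)))

end Cfsg.Agent.M23T
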