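import Mathlib
import Cfsg.Agent.M23T.Defs
import Cfsg.Agent.GT.ElemAbRep
import Cfsg.Agent.GT.MinNormal
import Cfsg.Agent.GT.CoprimeGen

set_option autoImplicit false

namespace Cfsg.Agent.M23T

open Subgroup Cfsg.Agent.GT Cfsg.Agent.LX Cfsg.Agent.Gr6
open scoped commutatorElement

universe u

theorem cop_zp_two {M : Type*} [Group M] [Finite M] {J : Subgroup M} (hJ : IsPGroup 2 J) {y : M}
    (hy : Odd (orderOf y)) : (Nat.card (zpowers y)).Coprime (Nat.card J) :=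
  CopAct.coprime_of_isPGroup_right (by rw [Nat.card_zpowers]; exact Nat.coprime_two_right.2 hy) hJ

/-- A chief factor inside `I` on which `y` acts non-trivially. -/
theorem exists_rep {M : Type u} [Group M] [Finite M] {I : Subgroup M} [I.Normal] (hI : IsPGroup 2 I) {y : M}
    (hy : Odd (orderOf y)) (hn : y ∉ centralizer (I : Set M)) :
    ∃ (W : Type u) (_ : AddCommGroup W) (_ : Module (ZMod 2) W) (_ : Finite W) (ρ : Representation (ZMod 2) M W),
      (∀ U : Submodule (ZMod 2) W, (∀ g, ∀ w ∈ U, ρ g w ∈ U) → U = ⊥ ∨ U = ⊤) ∧ (∀ i ∈ I, ρ i = 1) ∧ ρ y ≠ 1 ∧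
      ∀ x : M, Odd (orderOf x) → I ⊓ centralizer ({x} : Set M) = ⊥ → ∀ w, ρ x w = w → w = 0 := by
  obtain ⟨I2, -, ⟨n2, l2, c2⟩, hmin⟩ := exists_minimal_le
    (P := fun U : Subgroup M => U.Normal ∧ U ≤ I ∧ y ∉ centralizer (U : Set M)) (H := I) ⟨‹_›, le_rfl, hn⟩
  have h20 : I2 ≠ ⊥ := by
    rintro rfl
    exact c2 (mem_centralizer_iff.2 fun h hh => by rw [SetLike.mem_coe, mem_bot] at hh; rw [hh, one_mul, mul_one])
  obtain ⟨I1, hch, -⟩ := exists_isChiefFactor_below (U := I2) (W := ⊥) (bot_lt_iff_ne_bot.2 h20)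
  haveI n1 : I1.Normal := hch.2.2.1
  have l1 : I1 ≤ I := hch.1.le.trans l2
  have c1 : y ∈ centralizer (I1 : Set M) := by
    by_contra h
    exact hch.1.ne (hmin I1 ⟨n1, l1, h⟩ hch.1.le)
  have hI1 : IsPGroup 2 I1 := hI.to_le l1
  have hI2 : IsPGroup 2 I2 := hI.to_le l2
  set f := QuotientGroup.mk' I1 with hf
  have hm : IsMinNormal (I2.map f) := hch.isMinNormal_map
  have hV : IsElementaryAbelian 2 (I2.map f) := hm.elementary_of_isPGroup Nat.prime_two (hI2.map f)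
  have hN : (⊤ : Subgroup (M ⧸ I1)) ≤ normalizer ((I2.map f : Subgroup (M ⧸ I1)) : Set (M ⧸ I1)) :=
    (normalizer_eq_top_iff.2 hm.normal).ge
  let φ : M →* (⊤ : Subgroup (M ⧸ I1)) := (topEquiv.symm : (M ⧸ I1) ≃* _).toMonoidHom.comp f
  have hφ : ∀ g, ((φ g : (⊤ : Subgroup (M ⧸ I1))) : M ⧸ I1) = f g := fun _ => rfl
  have hφs : Function.Surjective φ := topEquiv.symm.surjective.comp (QuotientGroup.mk'_surjective I1)
  refine ⟨EAV hV, inferInstance, inferInstance, inferInstance, (eaRep hV hN).comp φ, fun U hU => ?_,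
    fun i hi => ?_, fun h => ?_, fun x hx hc w hw => ?_⟩
  · have h1 : (⊤ : Subgroup (M ⧸ I1)) ≤ normalizer (EAV.grp U : Set (M ⧸ I1)) :=
      le_normalizer_grp (hHV := hN) fun h w hw => by
        obtain ⟨g, rfl⟩ := hφs h
        exact hU g w hw
    haveI := normal_of_top_le_normalizer h1
    rcases hm.eq_bot_or_eq (EAV.grp_le U) with h | h
    · exact .inl (EAV.grp_injective (h.trans EAV.grp_bot.symm))
    · exact .inr (EAV.grp_injective (h.trans EAV.grp_top.symm))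
  · haveI : (I.map f).Normal := Normal.map ‹_› f (QuotientGroup.mk'_surjective I1)
    haveI : Group.IsNilpotent (I.map f) := (hI.map f).isNilpotent
    exact (eaRep_eq_one_iff (hHV := hN) (h := φ i)).2 (hm.le_centralizer_of_isNilpotent (I.map f) ⟨i, hi, rfl⟩)
  · have h1 : f y ∈ centralizer ((I2.map f : Subgroup (M ⧸ I1)) : Set (M ⧸ I1)) :=
      (eaRep_eq_one_iff (hHV := hN) (h := φ y)).1 h
    refine c2 (CopAct.le_centralizer_of_commutator_le (A := zpowers y) (K := I2) (N := I1) (cop_zp_two hI1 hy) ?_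
      (zpowers_le.2 c1) (mem_zpowers y))
    refine commutator_le.2 fun a ha b hb => ?_
    rw [← QuotientGroup.ker_mk' I1, ← hf, MonoidHom.mem_ker, map_commutatorElement, commutatorElement_eq_one_iff_mul_comm]
    have h2 : f b ∈ centralizer ((I2.map f : Subgroup (M ⧸ I1)) : Set (M ⧸ I1)) := by
      obtain ⟨k, rfl⟩ := mem_zpowers_iff.1 hb
      rw [map_zpow]; exact zpow_mem h1 k
    exact mem_centralizer_iff.1 h2 _ ⟨a, ha, rfl⟩
  · have h1 : f x * w.val = w.val * f x := (eaRep_apply_eq_iff (hHV := hN) (h := φ x)).1 hw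
    have h2 := CopAct.map_inf_centralizer' f (A := zpowers x) (K := I2) (normalizer_eq_top_iff.2 n2 ▸ le_top)
      (cop_zp_two hI2 hx) (.inl (CopAct.isSolvable_zpowers x))
    have h3 : I2 ⊓ centralizer ((zpowers x : Subgroup M) : Set M) = ⊥ :=
      le_bot_iff.1 (hc ▸ inf_le_inf l2 (centralizer_le (Set.singleton_subset_iff.2 (mem_zpowers x))))
    rw [h3, Subgroup.map_bot] at h2
    refine EAV.val_eq_one_iff.1 (mem_bot.1 (h2.ge ⟨w.val_mem, mem_centralizer_iff.2 ?_⟩))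
    rintro _ ⟨b, hb, rfl⟩
    obtain ⟨k, rfl⟩ := mem_zpowers_iff.1 hb
    rw [map_zpow]
    exact (show Commute (f x) w.val from h1).zpow_left k

section Quad

variable {K : Type*} [Group K] {R : Subgroup K} {ζ : K}

theorem quad_key [R.Normal] (hR : ∀ x ∈ R, x * x = 1 → x = 1) (hq : ∀ y ∈ R, Commute (y * ζ * y⁻¹) ζ)
    {a b c : K} (ha : a * a = 1) (hb : b * b = 1) (hab : Commute a b) (hc : c = a * b)
    (e2 : ζ * b * ζ⁻¹ = c) (e3 : ζ * c * ζ⁻¹ = a) {y : K} (hy : y ∈ R) (hya : Commute a y) :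
    Commute b y := by
  have bi : b⁻¹ = b := inv_eq_of_mul_eq_one_right hb
  have ai : a⁻¹ = a := inv_eq_of_mul_eq_one_right ha
  obtain ⟨x, hx⟩ : ∃ x, x = y⁻¹ * b * y * b := ⟨_, rfl⟩
  have xR : x ∈ R := by
    have := R.mul_mem (R.inv_mem hy) (Normal.conj_mem ‹_› y hy b)
    rw [bi] at this
    rw [hx]; simpa only [mul_assoc] using this
  have ax : a * x * a⁻¹ = x := by
    have : Commute a x := hx ▸ ((hya.inv_right.mul_right hab).mul_right hya).mul_right hab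
    rw [this.eq, mul_inv_cancel_right]
  have bx : b * x * b⁻¹ = x⁻¹ := by
    rw [hx]; simp only [mul_inv_rev, inv_inv, bi, mul_assoc, hb, mul_one]
  have cx : c * x * c⁻¹ = x⁻¹ := by
    calc c * x * c⁻¹ = a * (b * x * b⁻¹) * a⁻¹ := by rw [hc]; group
      _ = (a * x * a⁻¹)⁻¹ := by rw [bx]; group
      _ = x⁻¹ := by rw [ax]
  obtain ⟨x2, hx2⟩ : ∃ x2, x2 = ζ * x * ζ⁻¹ := ⟨_, rfl⟩
  obtain ⟨x3, hx3⟩ : ∃ x3, x3 = ζ * x2 * ζ⁻¹ := ⟨_, rfl⟩
  have ax2 : a * x2 * a⁻¹ = x2⁻¹ := by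
    calc a * x2 * a⁻¹ = ζ * (c * x * c⁻¹) * ζ⁻¹ := by rw [← e3, hx2]; group
      _ = x2⁻¹ := by rw [cx, hx2]; group
  have cx2 : c * x2 * c⁻¹ = x2⁻¹ := by
    calc c * x2 * c⁻¹ = ζ * (b * x * b⁻¹) * ζ⁻¹ := by rw [← e2, hx2]; group
      _ = x2⁻¹ := by rw [bx, hx2]; group
  have ax3 : a * x3 * a⁻¹ = x3⁻¹ := by
    calc a * x3 * a⁻¹ = ζ * (c * x2 * c⁻¹) * ζ⁻¹ := by rw [← e3, hx3]; group
      _ = x3⁻¹ := by rw [cx2, hx3]; group
  have h1 := (hq x⁻¹ (R.inv_mem xR)).eq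
  have h2 : x3 = x2 * x⁻¹ * x2 := by
    calc x3 = x2 * (ζ * (x⁻¹ * ζ * x⁻¹⁻¹)) * ζ⁻¹ * ζ⁻¹ := by rw [hx3, hx2]; group
      _ = x2 * x⁻¹ * x2 := by rw [← h1, hx2]; group
  have h3 : x3⁻¹ = x2⁻¹ * x⁻¹ * x2⁻¹ := by
    calc x3⁻¹ = (a * x2 * a⁻¹) * (a * x * a⁻¹)⁻¹ * (a * x2 * a⁻¹) := by rw [← ax3, h2]; group
      _ = _ := by rw [ax2, ax]
  have h4 : x * x = 1 := by
    calc x * x = x * x2⁻¹ * (x2⁻¹ * x⁻¹ * x2⁻¹)⁻¹ * x2⁻¹ := by group
      _ = 1 := by rw [← h3, inv_inv, h2]; group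
  have h5 := hR x xR h4
  rw [hx] at h5
  calc b * y = y * (y⁻¹ * b * y * b) * b⁻¹ := by group
    _ = y * b := by rw [h5, bi, mul_one]

theorem quad_cen [Finite K] [R.Normal] (hR : Odd (Nat.card R)) (hq : ∀ y ∈ R, Commute (y * ζ * y⁻¹) ζ)
    (h3 : ζ ^ 3 = 1) {v : K} (hv : v * v = 1) (hc' : Commute v (ζ * v * ζ⁻¹))
    (hp : v * (ζ * v * ζ⁻¹) * (ζ * (ζ * v * ζ⁻¹) * ζ⁻¹) = 1) : v ∈ centralizer (R : Set K) := by
  have hR' : ∀ x ∈ R, x * x = 1 → x = 1 := fun x hx h => by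
    have h1 : orderOf x ∣ 2 := orderOf_dvd_of_pow_eq_one (by rw [pow_two, h])
    exact orderOf_eq_one_iff.1 (Nat.eq_one_of_dvd_coprimes (Nat.coprime_two_left.2 hR) h1
      (orderOf_dvd_natCard R hx))
  obtain ⟨b, e1⟩ : ∃ b, ζ * v * ζ⁻¹ = b := ⟨_, rfl⟩
  rw [e1] at hc' hp
  obtain ⟨c, e2⟩ : ∃ c, ζ * b * ζ⁻¹ = c := ⟨_, rfl⟩
  rw [e2] at hp
  have e3 : ζ * c * ζ⁻¹ = v := by
    calc ζ * c * ζ⁻¹ = ζ ^ 3 * v * (ζ ^ 3)⁻¹ := by rw [← e2, ← e1, pow_three]; group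
      _ = v := by rw [h3, one_mul, inv_one, mul_one]
  have hb : b * b = 1 := by
    calc b * b = ζ * (v * v) * ζ⁻¹ := by rw [← e1]; group
      _ = 1 := by rw [hv, mul_one, mul_inv_cancel]
  have hvb : v * b * (v * b) = 1 := by
    calc v * b * (v * b) = v * (b * v) * b := by group
      _ = v * v * (b * b) := by rw [← hc'.eq]; group
      _ = 1 := by rw [hv, hb, mul_one]
  have hc : c = v * b := by
    rw [← mul_left_cancel_iff (a := v * b), hp, hvb]
  have hcc : c * c = 1 := by rw [hc, hvb]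
  have vc : Commute v c := hc ▸ (Commute.refl v).mul_right hc'
  have bc : Commute b c := hc ▸ hc'.symm.mul_right (Commute.refl b)
  have h1 : v = b * c := by rw [hc, hc'.eq, ← mul_assoc, hb, one_mul]
  have h2 : b = c * v := by rw [hc, hc'.eq, mul_assoc, hv, mul_one]
  by_cases v1 : v = 1
  · rw [v1]; exact one_mem _
  have b1 : b ≠ 1 := fun h => v1 (by
    calc v = ζ⁻¹ * b * ζ := by rw [← e1]; group
      _ = 1 := by rw [h, mul_one, inv_mul_cancel])
  have c1 : c ≠ 1 := fun h => v1 (by rw [← e3, h, mul_one, mul_inv_cancel])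
  have m1 : v * c = b := by rw [vc.eq, ← h2]
  have m2 : b * v = c := by rw [← hc'.eq, ← hc]
  have m3 : c * b = v := by rw [← bc.eq, ← h1]
  let A : Subgroup K :=
    { carrier := {x | x = 1 ∨ x = v ∨ x = b ∨ x = c}
      one_mem' := .inl rfl
      mul_mem' := by
        rintro x y (hx | hx | hx | hx) (hy | hy | hy | hy) <;> rw [hx, hy] <;>
          simp only [Set.mem_ofPred_eq, one_mul, mul_one, hv, hb, hcc, m1, m2, m3, ← hc, ← h1, ← h2, true_or, or_true]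
      inv_mem' := by
        rintro x (hx | hx | hx | hx) <;> rw [hx] <;>
          simp only [Set.mem_ofPred_eq, inv_one, inv_eq_of_mul_eq_one_right hv, inv_eq_of_mul_eq_one_right hb,
            inv_eq_of_mul_eq_one_right hcc, true_or, or_true] }
  have sq : ∀ x ∈ A, x * x = 1 := by
    rintro x (hx | hx | hx | hx) <;> rw [hx]
    exacts [mul_one 1, hv, hb, hcc]
  have hA2 : IsPGroup 2 A := isPGroup_of_forall_pow_eq_one fun x hx => by rw [pow_two, sq x hx]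
  have hAc : IsMulCommutative A := ⟨⟨fun x y => Subtype.ext (by
    have hxy := inv_eq_of_mul_eq_one_right (sq _ (A.mul_mem x.2 y.2))
    rw [mul_inv_rev, inv_eq_of_mul_eq_one_right (sq _ x.2), inv_eq_of_mul_eq_one_right (sq _ y.2)] at hxy
    exact hxy.symm)⟩⟩
  have hnc : ¬ IsCyclic A := fun h => by
    obtain ⟨g, hg⟩ := h.exists_generator
    have key : ∀ x ∈ A, x ≠ 1 → x = g := fun x hx x1 => by
      obtain ⟨k, hk⟩ := mem_zpowers_iff.1 (hg ⟨x, hx⟩)
      have hk' : (g : K) ^ k = x := congrArg Subtype.val hk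
      have g2 : (g : K) ^ (2 : ℤ) = 1 := by rw [zpow_two, sq _ g.2]
      rcases Int.even_or_odd' k with ⟨m, rfl | rfl⟩
      · exact absurd (by rw [← hk', zpow_mul, g2, one_zpow]) x1
      · rw [← hk', zpow_add, zpow_mul, g2, one_zpow, one_mul, zpow_one]
    exact c1 (by rw [hc, key v (.inr (.inl rfl)) v1, key b (.inr (.inr (.inl rfl))) b1, sq _ g.2])
  have main : R ≤ centralizer ({v} : Set K) := by
    refine CopAct.le_of_centralizer_elt_le hAc hnc (normalizer_eq_top_iff.2 ‹_› ▸ le_top)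
      (CopAct.coprime_of_isPGroup_left hA2 hR.not_two_dvd_nat) ?_
    rintro a (ha | ha | ha | ha) a1 y ⟨hy, hy'⟩
    · exact absurd ha a1
    · rwa [← ha]
    · have t1 : Commute b y := ha ▸ (mem_centralizer_singleton_iff.1 hy').symm
      have t2 := quad_key hR' hq hb hcc bc h1 e3 e1 hy t1
      exact mem_centralizer_singleton_iff.2 (h1 ▸ (t1.mul_left t2).symm.eq)
    · have t1 : Commute c y := ha ▸ (mem_centralizer_singleton_iff.1 hy').symm
      exact mem_centralizer_singleton_iff.2 (quad_key hR' hq hcc hv vc.symm h2 e1 e2 hy t1).symm.eq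
  exact mem_centralizer_iff.2 fun y hy => mem_centralizer_singleton_iff.1 (main hy)

end Quad

/-- No alternating group of degree 4 with a quadratic element of order 3. -/
theorem quad {H : Type*} [Group H] [Finite H] (hc : IsPConstrained 3 H) (ho : Odd (Nat.card (pPrimeCore 3 H)))
    (P : Sylow 3 H) {ζ v : H} (hq : ∀ y ∈ (P : Subgroup H), Commute (y * ζ * y⁻¹) ζ) (h3 : ζ ^ 3 = 1)
    (hv : v * v = 1) (hc' : Commute v (ζ * v * ζ⁻¹))
    (hp : v * (ζ * v * ζ⁻¹) * (ζ * (ζ * v * ζ⁻¹) * ζ⁻¹) = 1) : v = 1 := by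
  set f := QuotientGroup.mk' (pPrimeCore 3 H) with hf
  have hR3 : IsPGroup 3 (pCore 3 (H ⧸ pPrimeCore 3 H)) := isPGroup_pCore 3
  have hRo : Odd (Nat.card (pCore 3 (H ⧸ pPrimeCore 3 H))) := by
    obtain ⟨k, hk⟩ := hR3.exists_card_eq
    rw [hk]; exact Odd.pow (by decide)
  have hle : pCore 3 (H ⧸ pPrimeCore 3 H) ≤ (P : Subgroup H).map f :=
    pCore_le_sylow (P.mapSurjective (QuotientGroup.mk'_surjective _))
  have h1 := quad_cen (R := pCore 3 (H ⧸ pPrimeCore 3 H)) (ζ := f ζ) (v := f v) hRo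
    (fun y hy => by
      obtain ⟨y, hy', rfl⟩ := hle hy
      simpa only [map_mul, map_inv] using (hq y hy').map f)
    (by rw [← map_pow, h3, map_one]) (by rw [← map_mul, hv, map_one])
    (by simpa only [map_mul, map_inv] using hc'.map f)
    (by simpa only [map_mul, map_inv, map_one] using congrArg f hp)
  have h2 := isPConstrained_iff.1 hc h1
  have o2 : orderOf v ∣ 2 := orderOf_dvd_of_pow_eq_one (by rw [pow_two, hv])
  have h4 : f v = 1 := orderOf_eq_one_iff.1 (Nat.eq_one_of_dvd_coprimes (Nat.coprime_two_left.2 hRo)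
    ((orderOf_map_dvd f v).trans o2) (orderOf_dvd_natCard _ h2))
  have h5 : v ∈ pPrimeCore 3 H := (QuotientGroup.eq_one_iff v).1 h4
  exact orderOf_eq_one_iff.1 (Nat.eq_one_of_dvd_coprimes (Nat.coprime_two_left.2 ho) o2 (orderOf_dvd_natCard _ h5))

end Cfsg.Agent.M23T
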