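import Mathlib

/-! `SL₂` over a reduced ring of characteristic two. -/

set_option autoImplicit false

namespace Cfsg.Agent.M23T.Mat

section
variable {L A : Type*} [CommRing L] [Ring A] [Algebra L A] {p q : A}

theorem sq_lin (h2 : (2 : L) = 0) {e : A} {z : L} (he : e * e = z • e + 1) (a b : L) :
    (a • (1 : A) + b • e) * (a • (1 : A) + b • e) = (a * a + b * b) • (1 : A) + (b * b * z) • e := by
  simp only [mul_add, add_mul, smul_mul_assoc, mul_smul_comm, one_mul, mul_one, he]
  match_scalars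
  · ring
  · linear_combination a * b * h2

theorem lemS [Finite A] (h2 : (2 : L) = 0) (red : ∀ a : L, (a * a) • (1 : A) = 0 → a = 0)
    (pp : p * p = 0) (qq : q * q = 0) (qp : q * p = 1 - p * q) {y z : L} (yz : y * z = 1) :
    ∃ k : ℕ, (1 + p) * ((1 + p) * (1 + (z * z) • q)) ^ k = y • p + z • q := by
  have pp' : ∀ x, p * (p * x) = 0 := fun x => by rw [← mul_assoc, pp, zero_mul]
  have qq' : ∀ x, q * (q * x) = 0 := fun x => by rw [← mul_assoc, qq, zero_mul]
  have qp' : ∀ x, q * (p * x) = x - p * (q * x) := fun x => by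
    rw [← mul_assoc, qp, sub_mul, one_mul, mul_assoc]
  obtain ⟨e, he⟩ : ∃ e, e = y • p + z • q + z • (p * q) := ⟨_, rfl⟩
  have e1 : e * e = z • e + 1 := by
    simp only [he, mul_add, add_mul, smul_mul_assoc, mul_smul_comm, mul_assoc, pp, qq, qp, pp', qq',
      qp', mul_sub, mul_one, mul_zero, smul_zero]
    match_scalars <;> grind
  have e2 : (1 + p) * (1 + (z * z) • q) = e * e := by
    simp only [e1]
    simp only [he, mul_add, add_mul, mul_smul_comm, one_mul, mul_one]
    match_scalars <;> grind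
  have e3 : (1 + p) * e = y • p + z • q := by
    simp only [he, mul_add, add_mul, mul_smul_comm, one_mul, pp, pp', smul_zero]
    match_scalars <;> grind
  have e4 : q * e * q = y • q := by
    simp only [he, mul_add, add_mul, smul_mul_assoc, mul_smul_comm, mul_assoc, qq, qq', qp', mul_zero,
      smul_zero, sub_zero, add_zero]
  have k0 : ∀ a b : L, (a • (1 : A) + b • e) * (a • (1 : A) + b • e) = 1 → a • (1 : A) + b • e = 1 := by
    intro a b h
    rw [sq_lin h2 e1] at h
    have h1 := congrArg (fun x => q * x * q) h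
    simp only [mul_add, add_mul, smul_mul_assoc, mul_smul_comm, mul_one, qq, e4, smul_zero, zero_add,
      smul_smul] at h1
    rw [mul_assoc, mul_comm z, yz, mul_one] at h1
    obtain rfl : b = 0 := red b (by
      rw [show (1 : A) = p * q + q * p by rw [qp]; abel, smul_add, ← mul_smul_comm, ← smul_mul_assoc, h1]
      simp)
    obtain rfl : a = 1 := sub_eq_zero.1 (red _ (by
      rw [show (a - 1) * (a - 1) = a * a - 1 by linear_combination (1 - a) * h2, sub_smul, one_smul,
        sub_eq_zero]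
      simpa using h))
    simp
  have k1 : ∀ (r : ℕ) (a b : L), (a • (1 : A) + b • e) ^ 2 ^ r = 1 → a • (1 : A) + b • e = 1 := by
    intro r
    induction r with
    | zero => simp
    | succ r ih =>
      intro a b h
      rw [pow_succ', pow_mul, sq, sq_lin h2 e1] at h
      exact k0 a b (by rw [sq_lin h2 e1, ih _ _ h])
  have k2 : ∀ m : ℕ, ∃ a b : L, e ^ m = a • (1 : A) + b • e := fun m => by
    induction m with
    | zero => exact ⟨1, 0, by simp⟩
    | succ m ih =>
      obtain ⟨a, b, h⟩ := ih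
      refine ⟨b, a + b * z, ?_⟩
      simp only [pow_succ, h, add_mul, smul_mul_assoc, one_mul, e1]
      module
  have hu : IsUnit e := IsUnit.of_mul_eq_one (e - z • 1) (by simp [mul_sub, e1])
  obtain ⟨N, hN, h⟩ := (isOfFinOrder_of_finite hu.unit).exists_pow_eq_one
  obtain ⟨r, m, ⟨k, rfl⟩, rfl⟩ := Nat.exists_eq_two_pow_mul_odd hN.ne'
  have h3 : e ^ (2 * k + 1) = 1 := by
    obtain ⟨a, b, h4⟩ := k2 (2 * k + 1)
    rw [h4]
    refine k1 r a b ?_
    rw [← h4, ← pow_mul, mul_comm]
    simpa using congrArg Units.val h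
  refine ⟨k + 1, ?_⟩
  rw [e2, ← sq, ← pow_mul, show 2 * (k + 1) = 2 * k + 1 + 1 by ring, pow_succ, h3, one_mul, e3]

theorem core [Finite A] (h2 : (2 : L) = 0) (red : ∀ a : L, (a * a) • (1 : A) = 0 → a = 0)
    (pp : p * p = 0) (qq : q * q = 0) (qp : q * p = 1 - p * q) {o c d : L} (ho : o * o + o + 1 = 0)
    (cd : c * d = 1) : ∃ k l : ℕ,
      (1 + p) * ((1 + p) * ((1 + c • q) * (1 + p) * (1 + c • q))) ^ k *
        ((1 + p) * ((1 + p) * ((1 + c • q) * (1 + (o * o) • p) * (1 + c • q))) ^ l) =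
      o • (p * q) + (o * o) • (q * p) + d • p := by
  have pp' : ∀ x, p * (p * x) = 0 := fun x => by rw [← mul_assoc, pp, zero_mul]
  have qq' : ∀ x, q * (q * x) = 0 := fun x => by rw [← mul_assoc, qq, zero_mul]
  have qp' : ∀ x, q * (p * x) = x - p * (q * x) := fun x => by
    rw [← mul_assoc, qp, sub_mul, one_mul, mul_assoc]
  obtain ⟨s, hs⟩ : ∃ s, s = q + d • (1 : A) + (d * d) • p := ⟨_, rfl⟩
  have ss : s * s = 0 := by
    simp only [hs, mul_add, add_mul, smul_mul_assoc, mul_smul_comm, pp, qq, qp, one_mul, mul_one]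
    match_scalars <;> grind
  have sp : s * p = 1 - p * s := by
    simp only [hs, mul_add, add_mul, smul_mul_assoc, mul_smul_comm, pp, qp, one_mul, mul_one]
    match_scalars <;> grind
  have key : ∀ a : L, (1 + c • q) * (1 + (a * a) • p) * (1 + c • q) = 1 + (a * c * (a * c)) • s := by
    intro a
    simp only [hs, mul_add, add_mul, smul_mul_assoc, mul_smul_comm, mul_assoc, qq, qp, qq', qp',
      one_mul, mul_one, sub_mul, mul_zero, smul_zero, sub_zero]
    match_scalars <;> grind
  obtain ⟨k, hk⟩ := lemS h2 red pp ss sp (y := d) (z := 1 * c) (by linear_combination cd)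
  obtain ⟨l, hl⟩ := lemS h2 red pp ss sp (y := o * o * d) (z := o * c) (by grind)
  rw [← key] at hk hl
  rw [mul_one, one_smul] at hk
  refine ⟨k, l, ?_⟩
  rw [hk, hl]
  simp only [mul_add, add_mul, smul_mul_assoc, mul_smul_comm, pp, ss, sp, smul_zero]
  simp only [hs, mul_add, mul_smul_comm, pp, qp, mul_one, smul_zero]
  match_scalars <;> grind

end

theorem core' {R : Type*} [Ring R] [Finite R] (h2 : (2 : R) = 0) {p q o c d : R}
    (red : ∀ a ∈ Subring.closure {o, c, d}, a * a = 0 → a = 0)
    (hp : p ∈ Subring.centralizer {o, c, d}) (hq : q ∈ Subring.centralizer {o, c, d})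
    (hc : ∀ x ∈ ({o, c, d} : Set R), ∀ y ∈ ({o, c, d} : Set R), x * y = y * x)
    (pp : p * p = 0) (qq : q * q = 0) (qp : q * p = 1 - p * q) (ho : o * o + o + 1 = 0)
    (cd : c * d = 1) : ∃ k l : ℕ,
      (1 + p) * ((1 + p) * ((1 + c * q) * (1 + p) * (1 + c * q))) ^ k *
        ((1 + p) * ((1 + p) * ((1 + c * q) * (1 + o * o * p) * (1 + c * q))) ^ l) =
      o * (p * q) + o * o * (q * p) + d * p := by
  have h1 : Subring.closure {o, c, d} ≤ Subring.centralizer {o, c, d} :=
    Subring.closure_le.2 fun x hx y hy => hc y hy x hx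
  have h3 := Subring.closure_le_centralizer_centralizer ({o, c, d} : Set R)
  letI : CommRing (Subring.closure ({o, c, d} : Set R)) :=
    { (inferInstance : Ring _) with mul_comm := fun x y => Subtype.ext (h3 y.2 x (h1 x.2)) }
  letI : Algebra (Subring.closure ({o, c, d} : Set R)) (Subring.centralizer ({o, c, d} : Set R)) :=
    (Subring.inclusion h1).toAlgebra' fun x y => Subtype.ext (h3 x.2 y y.2).symm
  obtain ⟨k, l, h⟩ := core (L := Subring.closure ({o, c, d} : Set R)) (p := ⟨p, hp⟩) (q := ⟨q, hq⟩)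
    (Subtype.ext h2) (fun a ha => Subtype.ext (red a a.2
      ((mul_one _).symm.trans (congrArg Subtype.val ha))))
    (Subtype.ext pp) (Subtype.ext qq) (Subtype.ext qp) (o := ⟨o, Subring.subset_closure (by simp)⟩)
    (c := ⟨c, Subring.subset_closure (by simp)⟩) (d := ⟨d, Subring.subset_closure (by simp)⟩)
    (Subtype.ext ho) (Subtype.ext cd)
  exact ⟨k, l, congrArg Subtype.val h⟩

end Cfsg.Agent.M23T.Mat
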