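import Mathlib
import Cfsg.Agent.M23T.Defs
import Cfsg.Agent.M23T.MatA

/-! Two quadratic involutions and an element of order three acting on a module over `𝔽₂`. -/

set_option autoImplicit false

namespace Cfsg.Agent.M23T

open Subgroup Cfsg.Agent.GT Cfsg.Agent.LX Cfsg.Agent.Gr6

namespace Mat

section
variable {R : Type*} [Ring R] {Z n : R}

theorem zz (h2 : (1 + 1 : R) = 0) (hZ : Z * Z + Z + 1 = 0) : Z * (Z + 1) = 1 := by
  linear_combination (norm := noncomm_ring) hZ - h2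

theorem zz' (h2 : (1 + 1 : R) = 0) (hZ : Z * Z + Z + 1 = 0) : (Z + 1) * Z = 1 := by
  linear_combination (norm := noncomm_ring) hZ - h2

theorem znz (h2 : (1 + 1 : R) = 0) (hZ : Z * Z + Z + 1 = 0) (nn : n * n = 0)
    (h : (1 + n) * Z * ((1 + n) * Z) + (1 + n) * Z + 1 = 0) : Z * n * Z = n := by
  have h1 : Z * n * Z + n + n * Z * n * Z = 0 := by
    linear_combination (norm := noncomm_ring) h - hZ - n * hZ + n * h2
  have h3 : n * Z * n * Z = 0 := by
    linear_combination (norm := noncomm_ring) n * h1 - nn - nn * (Z * n * Z)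
  linear_combination (norm := noncomm_ring) h1 - h3 - n * h2

theorem zl (h2 : (1 + 1 : R) = 0) (hZ : Z * Z + Z + 1 = 0) (h : Z * n * Z = n) : Z * n = n * (Z + 1) := by
  linear_combination (norm := noncomm_ring) h * (Z + 1) - Z * n * hZ + Z * n * h2

theorem zr (h2 : (1 + 1 : R) = 0) (hZ : Z * Z + Z + 1 = 0) (h : Z * n * Z = n) : (Z + 1) * n = n * Z := by
  linear_combination (norm := noncomm_ring) -((Z + 1) * h) + hZ * (n * Z) - h2 * (n * Z)

end

theorem ring_main {R : Type*} [Ring R] [Finite R] (h2 : (1 + 1 : R) = 0) {Z B n m d : R}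
    (hZ : Z * Z + Z + 1 = 0) (nn : n * n = 0) (mm : m * m = 0) (zn : Z * n * Z = n)
    (zm : Z * m * Z = m) (cd : (n * m + m * n) * d = 1) (dc : d * (n * m + m * n) = 1)
    (B3 : B * B * B = 1) (BZ : Commute B Z) (Bn : Commute B n) (Bm : Commute (B * Z) m)
    (red : ∀ S : Set R, (∀ v ∈ S, v * v = 0) → (∀ v ∈ S, ∀ w ∈ S, v * w = w * v) →
      (∀ v ∈ S, Commute v Z ∧ Commute v n ∧ Commute v m ∧ ∃ w ∈ S, v * B = B * w) → ∀ v ∈ S, v = 0) :
    ∃ (k l : ℕ) (x : R), (1 + n) * ((1 + n) * ((1 + m) * (1 + n) * (1 + m))) ^ k *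
      ((1 + n) * ((1 + n) * ((1 + m) * (Z * (1 + n) * (Z + 1)) * (1 + m))) ^ l) * (Z + 1) = 1 + x ∧
      x * n = 0 ∧ n * x = 0 ∧ (x = 0 → n = 0) ∧ Commute x (B * Z) := by
  obtain ⟨c, hc⟩ : ∃ c, c = n * m + m * n := ⟨_, rfl⟩
  rw [← hc] at cd dc
  have n1 := zl h2 hZ zn
  have n2 := zr h2 hZ zn
  have m1 := zl h2 hZ zm
  have m2 := zr h2 hZ zm
  have z1 := zz h2 hZ
  have z2 := zz' h2 hZ
  have inv : ∀ x, Commute c x → Commute d x := fun x h => by
    rw [Commute, SemiconjBy, ← mul_one (d * x), ← cd, mul_assoc, ← mul_assoc x, ← h.eq, ← mul_assoc,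
      ← mul_assoc, dc, one_mul]
  have cn : Commute c n := by
    rw [Commute, SemiconjBy, hc]; linear_combination (norm := noncomm_ring) m * nn - nn * m
  have cm : Commute c m := by
    rw [Commute, SemiconjBy, hc]; linear_combination (norm := noncomm_ring) n * mm - mm * n
  have cZ : Commute c Z := by
    rw [Commute, SemiconjBy, hc]
    linear_combination (norm := noncomm_ring) -(n1 * m) - n * m2 - m1 * n - m * n2
  have dn := inv _ cn
  have dm := inv _ cm
  have dZ := inv _ cZ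
  have dc' : Commute d c := dc.trans cd.symm
  obtain ⟨q, hq⟩ : ∃ q, q = m * d := ⟨_, rfl⟩
  have cq : c * q = m := by rw [hq, ← mul_assoc, cm.eq, mul_assoc, cd, mul_one]
  have cq' : Commute c q := hq ▸ cm.mul_right dc'.symm
  have dq : Commute d q := hq ▸ dm.mul_right (Commute.refl d)
  have qq : q * q = 0 := by rw [hq, mul_assoc, ← mul_assoc d, dm.eq, ← mul_assoc, ← mul_assoc, mm]; simp
  have qp : q * n = 1 - n * q := by
    rw [hq, mul_assoc, dn.eq, ← cd, hc]; noncomm_ring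
  have q1 : Z * q = q * (Z + 1) := by
    rw [hq, ← mul_assoc, m1, mul_assoc, mul_assoc, (dZ.add_right (Commute.one_right d)).eq]
  have q2 : (Z + 1) * q = q * Z := by rw [hq, ← mul_assoc, m2, mul_assoc, mul_assoc, dZ.eq]
  obtain ⟨o, ho⟩ : ∃ o, o = Z + q * n := ⟨_, rfl⟩
  have on : o * n = Z * n := by rw [ho, add_mul, mul_assoc, nn, mul_zero, add_zero]
  have no : n * o = Z * n := by
    rw [ho]; linear_combination (norm := noncomm_ring) -n1 + n * qp - nn * q
  have oq : o * q = (Z + 1) * q := by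
    rw [ho]; linear_combination (norm := noncomm_ring) qp * q - n * qq
  have qo : q * o = (Z + 1) * q := by
    rw [ho]; linear_combination (norm := noncomm_ring) -q2 + qq * n
  have oZ : Commute o Z := by
    rw [Commute, SemiconjBy, ho]; linear_combination (norm := noncomm_ring) -(q * n2) - q1 * n
  have oc : Commute o c := ho ▸ cZ.symm.add_left (cq'.mul_right cn).symm
  have od : Commute o d := ho ▸ dZ.symm.add_left (dq.mul_right dn).symm
  have on' : Commute o n := on.trans no.symm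
  have oq' : Commute o q := oq.trans qo.symm
  have oo : o * o + o + 1 = 0 := by
    linear_combination (norm := noncomm_ring) o * ho + oZ.eq + Z * ho + oq * n + ho + hZ +
      (Z + 1) * (q * n) * h2
  have o3 : o * o * o = 1 := by linear_combination (norm := noncomm_ring) o * oo - oo
  have Bm' : B * m = Z * m * B := by
    linear_combination (norm := noncomm_ring) -(B * z1 * m) + B * Z * m2 + Bm.eq * Z + m * B * hZ -
      m * B * (Z + 1) * h2 + m * BZ.eq - m1 * B
  have nm : n * m = n * q * c := by rw [mul_assoc, ← cq'.eq, cq]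
  have mn : m * n = q * n * c := by rw [mul_assoc, ← cn.eq, ← mul_assoc, ← cq'.eq, cq]
  have oo' : o * o = (Z + 1) * (n * q) + Z * (q * n) := by
    linear_combination (norm := noncomm_ring) oo - ho - (Z + 1) * h2 - (Z + 1) * qp
  have Bc : B * c = o * o * c * B := by
    linear_combination (norm := noncomm_ring) B * hc + Bn.eq * m + n * Bm' - n2 * (m * B) + Bm' * n +
      Z * m * Bn.eq + (Z + 1) * nm * B + Z * mn * B - oo' * (c * B)
  have Bd : B * d = o * d * B := by
    rw [← mul_one (o * d * B), ← cd, ← mul_assoc, mul_assoc _ B, Bc, od.eq]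
    simp only [← mul_assoc]
    rw [mul_assoc d, mul_assoc d, o3, mul_one, dc, one_mul]
  have om : Commute o m := cq ▸ oc.mul_right oq'
  have Bq : Commute B q := by
    rw [Commute, SemiconjBy, hq, ← mul_assoc, Bm', mul_assoc, Bd, ← mul_assoc, ← mul_assoc,
      mul_assoc Z, ← om.eq, mul_assoc Z, mul_assoc o, ← hq, oq, ← mul_assoc, z1, one_mul]
  have Bo : Commute B o := ho ▸ BZ.add_right (Bq.mul_right Bn)
  have hS : ∀ x ∈ ({o, c, d} : Set R), ∀ y ∈ ({o, c, d} : Set R), x * y = y * x := by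
    rintro _ (rfl | rfl | rfl) _ (rfl | rfl | rfl)
    exacts [rfl, oc, od, oc.symm, rfl, dc'.symm, od.symm, dc', rfl]
  have hC : ∀ x, Commute o x → Commute c x → Commute d x → x ∈ Subring.centralizer {o, c, d} := by
    rintro x h1 h3 h4 _ (rfl | rfl | rfl) <;> assumption
  have mo : o ∈ Subring.closure {o, c, d} := Subring.subset_closure (by simp)
  have mc : c ∈ Subring.closure {o, c, d} := Subring.subset_closure (by simp)
  have md : d ∈ Subring.closure {o, c, d} := Subring.subset_closure (by simp)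
  have h3 := Subring.closure_le_centralizer_centralizer ({o, c, d} : Set R)
  have h4 : Subring.closure {o, c, d} ≤ Subring.centralizer {o, c, d} :=
    Subring.closure_le.2 fun x hx y hy => hS y hy x hx
  have hB : ∀ v ∈ Subring.closure {o, c, d}, ∃ w ∈ Subring.closure {o, c, d}, v * B = B * w := by
    intro v hv
    induction hv using Subring.closure_induction with
    | mem x hx =>
      rcases hx with rfl | rfl | rfl
      · exact ⟨x, mo, Bo.eq.symm⟩
      · refine ⟨o * x, mul_mem mo mc, ?_⟩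
        rw [← mul_assoc, Bo.eq, mul_assoc o, Bc, ← mul_assoc, ← mul_assoc, ← mul_assoc, o3, one_mul]
      · refine ⟨o * o * x, mul_mem (mul_mem mo mo) md, ?_⟩
        rw [← mul_assoc, (Bo.mul_right Bo).eq, mul_assoc _ B, Bd, ← mul_assoc, ← mul_assoc, o3,
          one_mul]
    | zero => exact ⟨0, zero_mem _, by simp⟩
    | one => exact ⟨1, one_mem _, by simp⟩
    | add x y _ _ hx hy =>
      obtain ⟨x', a, e⟩ := hx
      obtain ⟨y', b, f⟩ := hy
      exact ⟨x' + y', add_mem a b, by rw [add_mul, mul_add, e, f]⟩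
    | neg x _ hx =>
      obtain ⟨x', a, e⟩ := hx
      exact ⟨-x', neg_mem a, by rw [neg_mul, mul_neg, e]⟩
    | mul x y _ _ hx hy =>
      obtain ⟨x', a, e⟩ := hx
      obtain ⟨y', b, f⟩ := hy
      exact ⟨x' * y', mul_mem a b, by rw [mul_assoc, f, ← mul_assoc, e, mul_assoc]⟩
  obtain ⟨k, l, h⟩ := core' (one_add_one_eq_two.symm.trans h2) (p := n) (q := q) (o := o) (c := c) (d := d)
    (fun a ha h0 => red {v | v ∈ Subring.closure {o, c, d} ∧ v * v = 0} (fun _ h => h.2)
      (fun v hv w hw => h3 hw.1 v (h4 hv.1)) (fun v hv => by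
        refine ⟨(h3 hv.1 _ (hC _ oZ cZ dZ)).symm, (h3 hv.1 _ (hC _ on' cn dn)).symm,
          (h3 hv.1 _ (hC _ om cm dm)).symm, ?_⟩
        obtain ⟨w, hw, e⟩ := hB v hv.1
        refine ⟨w, ⟨hw, ?_⟩, e⟩
        rw [← one_mul (w * w), ← B3, mul_assoc, ← mul_assoc B w, ← e, mul_assoc v, ← e,
          ← mul_assoc v, hv.2, zero_mul, mul_zero]) a ⟨ha, h0⟩)
    (hC _ on' cn dn) (hC _ oq' cq' dq) hS nn qq qp oo cd
  have e1 : Z * (1 + n) * (Z + 1) = 1 + o * o * n := by
    rw [mul_assoc o, on, ← mul_assoc o, oZ.eq, mul_assoc Z o, on, n1]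
    linear_combination (norm := noncomm_ring) z1
  have e2 : o * (n * q) + o * o * (q * n) = Z := by
    rw [← mul_assoc, on, mul_assoc o, ← mul_assoc o q, oq, ← mul_assoc, ← mul_assoc,
      (oZ.add_right (Commute.one_right o)).eq, mul_assoc _ o, oq]
    linear_combination (norm := noncomm_ring) hZ * (q * n) + Z * qp + Z * (q * n) * h2 - Z * (q * n) * h2
  rw [cq, e2, ← e1] at h
  refine ⟨k, l, d * (Z * n), ?_, ?_, ?_, fun e => ?_, ?_⟩
  · rw [h, add_mul, z1, n1, mul_assoc]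
  · rw [mul_assoc, mul_assoc, nn, mul_zero, mul_zero]
  · rw [← mul_assoc, ← dn.eq, mul_assoc, n1, ← mul_assoc n, nn, zero_mul, mul_zero]
  · rw [← one_mul n, ← z2, mul_assoc, ← one_mul (Z * n), ← cd, mul_assoc c, e, mul_zero, mul_zero]
  · have e3 : Z * (d * (Z * n)) = d * (o * (o * n)) := by
      rw [← mul_assoc, ← dZ.eq, on, ← mul_assoc o, oZ.eq, mul_assoc Z o, on, mul_assoc]
    rw [Commute, SemiconjBy, mul_assoc B, e3, ← mul_assoc B, Bd, mul_assoc _ B,
      (Bo.mul_right (Bo.mul_right Bn)).eq, od.eq, BZ.eq, ← mul_assoc (d * (Z * n)), mul_assoc d _ Z, zn]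
    simp only [← mul_assoc]
    rw [mul_assoc d o, mul_assoc d _ o, o3, mul_one]

theorem common {W : Type*} [AddCommGroup W] [Module (ZMod 2) W] [Nontrivial W]
    {S : Set (Module.End (ZMod 2) W)} (hS : S.Finite) (h1 : ∀ v ∈ S, v * v = 0)
    (h2 : ∀ v ∈ S, ∀ w ∈ S, v * w = w * v) : ∃ w ≠ 0, ∀ v ∈ S, v w = 0 := by
  induction S, hS using Set.Finite.induction_on with
  | empty => exact (exists_ne 0).imp fun _ h => ⟨h, by simp⟩
  | @insert a S _ _ ih =>
    obtain ⟨w, hw, h⟩ := ih (fun v hv => h1 v (Or.inr hv)) fun v hv u hu => h2 v (Or.inr hv) u (Or.inr hu)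
    by_cases e : a w = 0
    · exact ⟨w, hw, by rintro v (rfl | hv); exacts [e, h v hv]⟩
    · refine ⟨a w, e, ?_⟩
      rintro v (rfl | hv)
      · exact LinearMap.congr_fun (h1 v (Or.inl rfl)) w
      · rw [← Module.End.mul_apply, h2 v (Or.inr hv) a (Or.inl rfl), Module.End.mul_apply, h v hv,
          map_zero]

end Mat

open Mat in
theorem mat {M : Type*} [Group M] [Finite M] {W : Type*} [AddCommGroup W] [Module (ZMod 2) W] [Finite W]
    (ρ : Representation (ZMod 2) M W) {ζ b t t' : M}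
    (irr : ∀ U : Submodule (ZMod 2) W, (∀ g ∈ ({ζ, b, t, t'} : Set M), ∀ w ∈ U, ρ g w ∈ U) → U = ⊥ ∨ U = ⊤)
    (hζ : ρ ζ * ρ ζ + ρ ζ + 1 = 0) (h1 : ρ (t * ζ) * ρ (t * ζ) + ρ (t * ζ) + 1 = 0)
    (h1' : ρ (t' * ζ) * ρ (t' * ζ) + ρ (t' * ζ) + 1 = 0) (ht : ρ t * ρ t = 1) (ht' : ρ t' * ρ t' = 1)
    (hb : b ^ 3 = 1) (c1 : Commute b ζ) (c2 : Commute b t) (c3 : Commute (b * ζ) t') (hne : ρ t ≠ 1 ∨ ρ t' ≠ 1) :
    ∃ P : Subgroup M, t ∈ P ∧ (∀ m, ρ m = 1 → m ∈ P) ∧ ζ ∈ normalizer (P : Set M) ∧ b ∈ normalizer (P : Set M) ∧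
      (∀ m ∈ P, ρ (m * m) = 1) ∧ (∃ h ∈ P, ρ h ≠ 1 ∧ Commute (ρ h) (ρ (b * ζ))) ∧
      ¬ Commute (ρ ζ) (ρ t) ∧ ¬ Commute (ρ ζ) (ρ t') := by
  have : Finite (Module.End (ZMod 2) W) := Finite.of_injective _ DFunLike.coe_injective
  have h2 : (1 + 1 : Module.End (ZMod 2) W) = 0 := by
    rw [← two_smul (ZMod 2), show (2 : ZMod 2) = 0 from rfl, zero_smul]
  obtain ⟨n, hn⟩ : ∃ n, ρ t = 1 + n := ⟨ρ t - 1, by abel⟩
  obtain ⟨m, hm⟩ : ∃ m, ρ t' = 1 + m := ⟨ρ t' - 1, by abel⟩
  rw [map_mul, hn] at h1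
  rw [map_mul, hm] at h1'
  have nn : n * n = 0 := by rw [hn] at ht; linear_combination (norm := noncomm_ring) ht - n * h2
  have mm : m * m = 0 := by rw [hm] at ht'; linear_combination (norm := noncomm_ring) ht' - m * h2
  have zn := znz h2 hζ nn h1
  have zm := znz h2 hζ mm h1'
  have zi : ρ ζ⁻¹ = ρ ζ + 1 := by
    rw [← one_mul (ρ ζ + 1), ← map_one ρ, ← inv_mul_cancel ζ, map_mul, mul_assoc, ← map_mul,
      inv_mul_cancel, map_one, zz h2 hζ, mul_one]
  have BZ : Commute (ρ b) (ρ ζ) := c1.map ρ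
  have Bn : Commute (ρ b) n := by
    have := (c2.map ρ).eq
    rw [hn] at this
    rw [Commute, SemiconjBy]; linear_combination (norm := noncomm_ring) this
  have Bm : Commute (ρ b * ρ ζ) m := by
    have := (c3.map ρ).eq
    rw [hm, map_mul] at this
    rw [Commute, SemiconjBy]; linear_combination (norm := noncomm_ring) this
  have mB : m * ρ b = ρ b * ρ ζ * ρ ζ * m := by
    rw [mul_assoc _ _ m, zl h2 hζ zm, ← mul_assoc, Bm.eq, mul_assoc, mul_assoc, zz h2 hζ, mul_one]
  have hne' : ¬ (n = 0 ∧ m = 0) := fun h => by simp [hn, hm, h.1, h.2] at hne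
  have hW : Nontrivial W := by
    by_contra h
    have := not_nontrivial_iff_subsingleton.1 h
    exact hne' ⟨Subsingleton.elim _ _, Subsingleton.elim _ _⟩
  have ker : ∀ w, n w = 0 → m w = 0 → w = 0 := by
    rcases irr (LinearMap.ker n ⊓ LinearMap.ker m) (by
      rintro _ (rfl | rfl | rfl | rfl) w ⟨a, a'⟩ <;> rw [SetLike.mem_coe, LinearMap.mem_ker] at a a'
      · constructor <;> rw [SetLike.mem_coe, LinearMap.mem_ker, ← Module.End.mul_apply]
        · rw [← zr h2 hζ zn, Module.End.mul_apply, a, map_zero]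
        · rw [← zr h2 hζ zm, Module.End.mul_apply, a', map_zero]
      · constructor <;> rw [SetLike.mem_coe, LinearMap.mem_ker, ← Module.End.mul_apply]
        · rw [← Bn.eq, Module.End.mul_apply, a, map_zero]
        · rw [mB, Module.End.mul_apply, a', map_zero]
      · simp [hn, a, a']
      · simp [hm, a, a']) with h | h
    · exact fun w a a' => (Submodule.eq_bot_iff _).1 h w ⟨a, a'⟩
    · exact absurd ⟨LinearMap.ker_eq_top.1 (inf_eq_top_iff.1 h).1,
        LinearMap.ker_eq_top.1 (inf_eq_top_iff.1 h).2⟩ hne'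
  have hu : IsUnit (n - m) := (LinearMap.isUnit_iff_ker_eq_bot _).2 (LinearMap.ker_eq_bot'.2 fun w h => by
    have e : n w = m w := sub_eq_zero.1 h
    have e1 : n w = 0 := ker _ (LinearMap.congr_fun nn w) (e ▸ LinearMap.congr_fun mm w)
    exact ker w e1 (e ▸ e1))
  obtain ⟨u, hu⟩ := hu.mul hu
  have hc : (u : Module.End (ZMod 2) W) = n * m + m * n := by
    rw [hu]; linear_combination (norm := noncomm_ring) nn + mm - (n * m + m * n) * h2
  have cd : (n * m + m * n) * ↑u⁻¹ = 1 := hc ▸ u.mul_inv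
  have n0 : n ≠ 0 := fun e => by simp [e] at cd
  have m0 : m ≠ 0 := fun e => by simp [e] at cd
  obtain ⟨k, l, x, e, x1, x2, x3, x4⟩ := ring_main h2 (B := ρ b) hζ nn mm zn zm cd (hc ▸ u.inv_mul)
    (by rw [← map_mul, ← map_mul, ← pow_three', hb, map_one]) BZ Bn Bm (fun S s1 s2 s3 v hv => by
      rcases irr (⨅ v ∈ S, LinearMap.ker v) (by
        simp only [Submodule.mem_iInf, LinearMap.mem_ker]
        rintro _ (rfl | rfl | rfl | rfl) w hw v hv <;> obtain ⟨a1, a2, a3, v', a4, a5⟩ := s3 v hv <;>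
          rw [← Module.End.mul_apply]
        · rw [a1.eq, Module.End.mul_apply, hw v hv, map_zero]
        · rw [a5, Module.End.mul_apply, hw v' a4, map_zero]
        · rw [hn, ((Commute.one_right v).add_right a2).eq, Module.End.mul_apply, hw v hv, map_zero]
        · rw [hm, ((Commute.one_right v).add_right a3).eq, Module.End.mul_apply, hw v hv,
            map_zero]) with h | h
      · obtain ⟨w, hw, h'⟩ := common S.toFinite s1 s2
        exact absurd ((Submodule.eq_bot_iff _).1 h w (by simpa using h')) hw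
      · exact LinearMap.ker_eq_top.1 (eq_top_iff.2 (h.ge.trans (iInf₂_le v hv))))
  let P : Subgroup M :=
    { carrier := {g | ρ g * n = n ∧ n * ρ g = n}
      one_mem' := by simp
      mul_mem' := fun {a b} ha hb =>
        ⟨by rw [map_mul, mul_assoc, hb.1, ha.1], by rw [map_mul, ← mul_assoc, ha.2, hb.2]⟩
      inv_mem' := fun {a} ha =>
        ⟨by nth_rw 1 [← ha.1]; rw [← mul_assoc, ← map_mul, inv_mul_cancel, map_one, one_mul],
          by nth_rw 1 [← ha.2]; rw [mul_assoc, ← map_mul, mul_inv_cancel, map_one, mul_one]⟩ }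
  have nc : ∀ {s : Module.End (ZMod 2) W}, ρ ζ * s * ρ ζ = s → s ≠ 0 → ¬ Commute (ρ ζ) (1 + s) :=
    fun {s} h h0 hc => h0 (by
      linear_combination (norm := noncomm_ring) -zl h2 hζ h + hc.eq)
  refine ⟨P, ⟨by rw [hn, add_mul, nn]; simp, by rw [hn, mul_add, nn]; simp⟩,
    fun g h => ⟨by rw [h, one_mul], by rw [h, mul_one]⟩,
    mem_normalizer_fintype fun g hg => ⟨?_, ?_⟩, mem_normalizer_fintype fun g hg => ⟨?_, ?_⟩,
    fun g hg => ?_, ⟨t * (t * (t' * t * t')) ^ k * (t * (t * (t' * (ζ * t * ζ⁻¹) * t')) ^ l) * ζ⁻¹, ?_⟩,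
    hn ▸ nc zn n0, hm ▸ nc zm m0⟩
  · rw [map_mul, map_mul, zi, mul_assoc, zr h2 hζ zn, mul_assoc, ← mul_assoc (ρ g), hg.1, ← mul_assoc, zn]
  · rw [map_mul, map_mul, zi, ← mul_assoc, ← mul_assoc, ← zr h2 hζ zn, mul_assoc _ n, hg.2,
      zr h2 hζ zn, mul_assoc, zz h2 hζ, mul_one]
  · rw [map_mul, map_mul, mul_assoc, ← ((c2.inv_left.map ρ).symm.sub_left (Commute.one_left _)).eq.trans
      (congrArg _ (by rw [hn]; abel : ρ t - 1 = n)), show ρ t - 1 = n by rw [hn]; abel, mul_assoc,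
      ← mul_assoc (ρ g), hg.1, ← mul_assoc, Bn.eq, mul_assoc, ← map_mul, mul_inv_cancel, map_one, mul_one]
  · rw [map_mul, map_mul, ← mul_assoc, ← mul_assoc, ← Bn.eq, mul_assoc _ n, hg.2, Bn.eq, mul_assoc,
      ← map_mul, mul_inv_cancel, map_one, mul_one]
  · have dn : n * ↑u⁻¹ = ↑u⁻¹ * n := (Commute.units_inv_right (by
      rw [Commute, SemiconjBy, hc]; linear_combination (norm := noncomm_ring) nn * m - m * nn)).eq
    rw [map_mul]
    linear_combination (norm := noncomm_ring) -((ρ g - 1) * cd * (ρ g - 1)) +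
      hg.1 * (m * ↑u⁻¹ * (ρ g - 1)) + (ρ g - 1) * m * dn * (ρ g - 1) + (ρ g - 1) * m * ↑u⁻¹ * hg.2 +
      (ρ g - 1) * h2
  · have e' : ρ (t * (t * (t' * t * t')) ^ k * (t * (t * (t' * (ζ * t * ζ⁻¹) * t')) ^ l) * ζ⁻¹) = 1 + x := by
      simp only [map_mul, map_pow, hn, hm, zi, e]
    refine ⟨⟨by rw [e', add_mul, x1]; simp, by rw [e', mul_add, x2]; simp⟩, fun h => n0 (x3 ?_), ?_⟩
    · rwa [e', add_eq_left] at h
    · rw [e', map_mul]
      exact (Commute.one_left _).add_left x4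

end Cfsg.Agent.M23T
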