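import Mathlib
import Cfsg.Agent.M23T.Mat
import Cfsg.Agent.M23T.Chf
import Cfsg.Agent.GT.FixedPointFree
import Cfsg.Agent.GT.TransferSylow

/-!
The action of a group generated by `E` and two invariant 2-subgroups on a chief factor.
-/

set_option autoImplicit false
set_option linter.unusedSectionVars false

namespace Cfsg.Agent.M23T

open Subgroup Cfsg.Agent.GT Cfsg.Agent.LX Cfsg.Agent.Gr6
open scoped commutatorElement

variable {G : Type*} [Group G] [Finite G] {E T T' I : Subgroup G} {ζ b x y t t' : G}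

theorem zp3 (hx : x ^ 3 = 1) (hy : y ∈ zpowers x) : y = 1 ∨ y = x ∨ y = x⁻¹ := by
  obtain ⟨n, rfl⟩ := (mem_powers_iff_mem_zpowers.2 hy : y ∈ Submonoid.powers x)
  have e : x ^ n = x ^ (n % 3) := by
    conv_lhs => rw [← Nat.div_add_mod n 3, pow_add, pow_mul, hx, one_pow, one_mul]
  have : n % 3 = 0 ∨ n % 3 = 1 ∨ n % 3 = 2 := by omega
  rcases this with h | h | h <;> simp only [e, h, pow_zero, pow_one, true_or, or_true]
  exact .inr (.inr (eq_inv_of_mul_eq_one_left (by rw [← pow_succ, hx])))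

theorem E9.pow (h : E9 E) (hx : x ∈ E) : x ^ 3 = 1 := h.elem.2 x hx

theorem E9.sup_eq (h : E9 E) (hb : b ∈ E) (hb1 : b ≠ 1) (hx : x ∈ E) (hn : x ∉ zpowers b) :
    zpowers b ⊔ zpowers x = E := by
  refine PG.eq_of_le_of_card_le (sup_le (zpowers_le.2 hb) (zpowers_le.2 hx)) (le_of_eq ?_)
  rw [PG.card_sup_zpowers Nat.prime_three (centralizer_le_normalizer _ (centralizer_le (zpowers_le.2 hb)
    (h.elem.le_centralizer hx))) hn (by rw [h.pow hx]; exact one_mem _), Nat.card_zpowers,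
    h.elem.orderOf_eq hb hb1, h.card]

theorem E9.gen (h : E9 E) (hb : b ∈ E) (hb1 : b ≠ 1) (hx : x ∈ E) (hn : x ∉ zpowers b) (hy : y ∈ E) :
    ∃ a ∈ zpowers b, ∃ c ∈ zpowers x, a * c = y := by
  rw [← h.sup_eq hb hb1 hx hn] at hy
  exact (PG.mem_sup_of_le_normalizer ((zpowers_le.2 hx).trans (h.elem.le_centralizer.trans
    ((centralizer_le (zpowers_le.2 hb)).trans (centralizer_le_normalizer _))))).1 hy

theorem E9.cases (h : E9 E) (hζ : ζ ∈ E) (h1 : ζ ≠ 1) (hx : x ∈ E) (hn : x ∉ zpowers ζ) (hy : y ∈ E)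
    (hn' : y ∉ zpowers ζ) : ∃ c, (c = x ∨ c = x * ζ ∨ c = x * ζ⁻¹) ∧ ∀ t, Commute y t → Commute c t := by
  obtain ⟨a, ha, c, hc, rfl⟩ := h.gen hζ h1 hx hn hy
  have cm : a * x = x * a := h.elem.comm (zpowers_le.2 hζ ha) hx
  rcases zp3 (h.pow hx) hc with rfl | rfl | rfl
  · exact absurd (by rwa [mul_one]) hn'
  · refine ⟨c * a, ?_, fun t ht => by rwa [← cm]⟩
    rcases zp3 (h.pow hζ) ha with rfl | rfl | rfl <;> simp
  · refine ⟨x * a⁻¹, ?_, fun t ht => by simpa using ht.inv_left⟩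
    rcases zp3 (h.pow hζ) ha with rfl | rfl | rfl <;> simp

theorem E9.cop (h : E9 E) (hT : ¬ 3 ∣ Nat.card T) : (Nat.card E).Coprime (Nat.card T) :=
  CopAct.coprime_of_isPGroup_left h.elem.isPGroup hT

theorem not_three_dvd (hT : IsPGroup 2 T) : ¬ 3 ∣ Nat.card T := by
  obtain ⟨n, hn⟩ := hT.exists_card_eq
  rw [hn]; intro h
  exact absurd (Nat.prime_three.dvd_of_dvd_pow h) (by decide)

theorem exists_odd (h : ¬ IsPGroup 2 T) : ∃ y ∈ T, Odd (orderOf y) ∧ y ≠ 1 := by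
  by_contra! hc
  refine h fun g => ?_
  obtain ⟨k, m, hm, e⟩ := Nat.exists_eq_two_pow_mul_odd (orderOf_pos g).ne'
  refine ⟨k, Subtype.ext (hc _ (g ^ 2 ^ k).2 (hm.of_dvd_nat (orderOf_dvd_of_pow_eq_one ?_)))⟩
  rw [← coe_pow, ← pow_mul, ← e, pow_orderOf_eq_one, coe_one]

theorem exists_conj_mul (hn : ζ ∈ normalizer (T : Set G)) (hf : T ⊓ centralizer ({ζ} : Set G) = ⊥) (ht : t ∈ T) :
    ∃ s, t * ζ = s * ζ * s⁻¹ := by
  obtain ⟨s, hs⟩ := (Frob.fpf_normalizerMonoidHom hn hf).commutatorMap_surjective ⟨t, ht⟩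
  have e : (s : G) * (ζ * s * ζ⁻¹)⁻¹ = t := by
    have := congrArg Subtype.val hs
    rwa [MonoidHom.commutatorMap_apply, div_eq_mul_inv] at this
  exact ⟨s, by rw [← e]; group⟩

section
variable {W : Type*} [AddCommGroup W] [Module (ZMod 2) W] (ρ : Representation (ZMod 2) G W)

theorem quad_eq (h3 : ζ ^ 3 = 1) (hf : ∀ w, ρ ζ w = w → w = 0) (s : G) (e : x = s * ζ * s⁻¹) :
    ρ x * ρ x + ρ x + 1 = 0 := by
  have x3 : x * x * x = 1 := by rw [← pow_three', e, conj_pow, h3, mul_one, mul_inv_cancel]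
  have hx : ∀ w, ρ x w = w → w = 0 := fun w hw => by
    have h1 : ρ ζ (ρ s⁻¹ w) = ρ s⁻¹ w := by
      conv_rhs => rw [← hw, ← Module.End.mul_apply, ← map_mul, e]
      rw [← Module.End.mul_apply, ← map_mul]
      simp only [← mul_assoc, inv_mul_cancel, one_mul]
    have h2 := congrArg (ρ s) (hf _ h1)
    rwa [← Module.End.mul_apply, ← map_mul, mul_inv_cancel, map_one, map_zero] at h2
  refine LinearMap.ext fun w => hx _ ?_
  rw [← Module.End.mul_apply, mul_add, mul_add, ← mul_assoc, ← map_mul, ← map_mul, x3, map_one, mul_one, map_mul]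
  congr 1; abel

theorem stab_top {U : Submodule (ZMod 2) W} {S : Set G} (gen : closure S = ⊤) (h : ∀ g ∈ S, ∀ w ∈ U, ρ g w ∈ U)
    (g : G) : ∀ w ∈ U, ρ g w ∈ U := by
  have hg : g ∈ Submonoid.closure S := by
    rw [← closure_toSubmonoid_of_finite, gen]; trivial
  induction hg using Submonoid.closure_induction with
  | mem x hx => exact h x hx
  | one => simp
  | mul x y _ _ hx hy => exact fun w hw => by rw [map_mul]; exact hx _ (hy w hw)

end

/-- The configuration in the group generated by `I`, `E`, `t`, `t'`. -/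
theorem core [I.Normal] (hC : centralizer (I : Set G) ≤ I) (e9 : E9 E) (hζ : ζ ∈ E) (hb : b ∈ E) (ζ1 : ζ ≠ 1)
    (hbζ : b ∉ zpowers ζ) (max : ∀ x ∈ centralizer (E : Set G), x ^ 3 = 1 → x ∈ E)
    (fpf : ∀ S, Inv E S → S ⊓ centralizer ({ζ} : Set G) = ⊥)
    (gen : closure ((I : Set G) ∪ {ζ, b, t, t'}) = ⊤) (hT : Inv E T) (hT' : Inv E T') (hI : I ≤ T) (ht : t ∈ T)
    (ht' : t' ∈ T') (n' : t' ∉ I) (s : t * t ∈ I) (s' : t' * t' ∈ I) (c : Commute b t) (c' : Commute (b * ζ) t') :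
    ∃ S, Inv E S ∧ I ≤ S ∧ t ∈ S ∧ ∃ s ∈ S, s ∉ I ∧ Commute (b * ζ) s := by
  have hI2 := hT.1.to_le hI
  by_cases hG : IsPGroup 2 (normalClosure ((I : Set G) ∪ {t, t'}))
  · exact ⟨_, ⟨hG, le_normalizer_of_normal⟩, fun i hi => subset_normalClosure (.inl hi),
      subset_normalClosure (.inr (by simp)), t', subset_normalClosure (.inr (by simp)), n', c'⟩
  obtain ⟨y, y1, y2, y3⟩ := exists_odd hG
  have hn : y ∉ centralizer (I : Set G) := fun h => by
    obtain ⟨k, hk⟩ := PG.exists_pow_pow_eq_one_of_mem hI2 (hC h)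
    exact y3 (orderOf_eq_one_iff.1 (Nat.eq_one_of_dvd_coprimes ((Nat.coprime_two_right.2 y2).pow_right k) dvd_rfl
      (orderOf_dvd_of_pow_eq_one hk)))
  obtain ⟨W, _, _, _, ρ, irr, triv, hy, lift⟩ := exists_rep hI2 y2 hn
  have hf := lift ζ (by rw [e9.elem.orderOf_eq hζ ζ1]; decide) (fpf I ⟨hI2, le_normalizer_of_normal⟩)
  obtain ⟨u, hu⟩ := exists_conj_mul (hT.2 hζ) (fpf T hT) ht
  obtain ⟨u', hu'⟩ := exists_conj_mul (hT'.2 hζ) (fpf T' hT') ht'
  obtain ⟨P, p1, p2, p3, p4, p5, ⟨h, h1, h2, h3⟩, p6, p7⟩ := mat ρ (ζ := ζ) (b := b) (t := t) (t' := t')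
    (fun U hU => irr U (stab_top ρ gen fun g hg => hg.elim (fun hg w hw => by rwa [triv g hg]) (hU g)))
    (quad_eq ρ (e9.pow hζ) hf 1 (by simp)) (quad_eq ρ (e9.pow hζ) hf u hu) (quad_eq ρ (e9.pow hζ) hf u' hu')
    (by rw [← map_mul, triv _ s]) (by rw [← map_mul, triv _ s']) (e9.pow hb) (e9.elem.comm hb hζ) c c'
    (by
      by_contra! hc
      refine hy ((normalClosure_le_normal (N := ρ.ker) ?_) y1)
      rintro g (hg | rfl | rfl)
      exacts [triv g hg, hc.1, hc.2])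
  have b1 : b ≠ 1 := fun e => hbζ (e ▸ one_mem _)
  have no3 : ∀ x : G, x ^ 3 = 1 → ρ x = 1 → x = 1 := fun x x3 hx => by_contra fun x1 => by
    obtain ⟨R, hR⟩ := e9.elem.isPGroup.exists_le_sylow
    obtain ⟨g, hg⟩ := Tr.exists_conj_le_sylow R (IsElementaryAbelian.zpowers x3).isPGroup
    have hK : (R : Subgroup G) ⊓ ρ.ker ≠ ⊥ := fun e => x1 (by
      have : g * x * g⁻¹ ∈ (R : Subgroup G) ⊓ ρ.ker :=
        ⟨hg x (mem_zpowers x), (MonoidHom.normal_ker ρ).conj_mem x hx g⟩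
      rw [e, mem_bot] at this
      simpa using this)
    have hp : IsPGroup 3 ((R : Subgroup G) ⊓ ρ.ker : Subgroup G) := R.2.to_inf_left
    obtain ⟨z, z1, z2, z3⟩ := PG.exists_mem_ne_one_pow_eq_one hp.to_inf_left (PG.inf_centralizer_ne_bot_of_isPGroup hp
      e9.elem.isPGroup (CopAct.le_normalizer_inf (hR.trans le_normalizer) le_normalizer_of_normal) hK)
    have hz : ρ z = 1 := z1.1.2
    by_cases hzb : z ∈ zpowers b
    · have : ρ b = 1 := by
        rcases zp3 (e9.pow hb) hzb with rfl | rfl | rfl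
        exacts [absurd rfl z2, hz, (inv_mem_iff (H := ρ.ker)).1 hz]
      exact p7 (by simpa [this] using c'.map ρ)
    · obtain ⟨a, ha, d, hd, rfl⟩ := e9.gen hb b1 (max z z1.2 z3) hzb hζ
      have : ρ d = 1 := zpowers_le (H := ρ.ker).2 hz hd
      obtain ⟨n, rfl⟩ := mem_zpowers_iff.1 ha
      exact p6 (by simpa [this] using (c.zpow_left n).map ρ)
  have P3 : ¬ 3 ∣ Nat.card P := fun h => by
    obtain ⟨m, hm⟩ := exists_prime_orderOf_dvd_card' 3 h
    have m3 : (m : G) ^ 3 = 1 := by rw [← coe_pow, ← hm, pow_orderOf_eq_one, coe_one]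
    have := no3 _ (by rw [← sq, ← pow_mul, mul_comm, pow_mul, m3, one_pow]) (p5 m m.2)
    rw [pow_three', this, one_mul, OneMemClass.coe_eq_one] at m3
    simp [m3] at hm
  have hEP : E ≤ normalizer (P : Set G) := by
    rw [← e9.sup_eq hζ ζ1 hb hbζ]; exact sup_le (zpowers_le.2 p3) (zpowers_le.2 p4)
  obtain ⟨S, s1, s2, s3, s4, s5⟩ := CopAct.exists_invariant_sylowIn_ge hEP (e9.cop P3)
    (.inl (CopAct.isSolvable_of_isPGroup e9.elem.isPGroup)) (U := T ⊓ P) inf_le_right hT.1.to_inf_left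
    (CopAct.le_normalizer_inf hT.2 hEP)
  have hq : IsPGroup 2 (P ⧸ ρ.ker.subgroupOf P) := fun g => by
    obtain ⟨g, rfl⟩ := QuotientGroup.mk_surjective g
    exact ⟨1, by rw [pow_one, sq, ← QuotientGroup.mk_mul, QuotientGroup.eq_one_iff]; exact p5 g g.2⟩
  obtain ⟨n, hn⟩ := hq.exists_card_eq
  obtain ⟨v, v1, k, k1, rfl⟩ := CopAct.exists_mul_of_coprime_relIndex s2 (Y := ρ.ker) p2
    (by rw [show ρ.ker.relIndex P = 2 ^ n from hn]
        exact ((Nat.prime_two.coprime_iff_not_dvd.2 s4).symm).pow_right n) h h1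
  rw [map_mul, show ρ k = 1 from k1, mul_one] at h2 h3
  have hA : zpowers (b * ζ) ≤ E := zpowers_le.2 (mul_mem hb hζ)
  obtain ⟨x, x1, d, d1, rfl⟩ := CopAct.exists_eq_mul_centralizer (A := zpowers (b * ζ)) (N := S ⊓ ρ.ker)
    (CopAct.le_normalizer_inf (hA.trans s5) le_normalizer_of_normal)
    (CopAct.coprime_mono (e9.cop (not_three_dvd s3)) hA inf_le_left) (.inl (CopAct.isSolvable_zpowers _)) (k := v)
    fun a ha => ⟨by
      rw [commutatorElement_def, mul_assoc, mul_assoc, ← mul_assoc a]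
      exact mul_mem v1 (CopAct.conj_mem s5 (hA ha) (inv_mem v1)), by
      obtain ⟨j, rfl⟩ := (mem_powers_iff_mem_zpowers.2 ha : a ∈ Submonoid.powers _)
      have e : ρ v * ρ ((b * ζ) ^ j) = ρ ((b * ζ) ^ j) * ρ v := by rw [map_pow]; exact h3.pow_right j
      change ρ _ = 1
      rw [commutatorElement_def, map_mul, map_mul, map_mul, e, ← map_mul, ← map_mul, ← map_mul]
      simp⟩
  refine ⟨S, ⟨s3, s5⟩, (le_inf hI fun i hi => p2 i (triv i hi)).trans s1, s1 ⟨ht, p1⟩, d,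
    (S.mul_mem_cancel_left x1.1).1 v1, fun hd => h2 ?_, d1 _ (mem_zpowers _)⟩
  rw [map_mul, show ρ x = 1 from x1.2, triv d hd, mul_one]

end Cfsg.Agent.M23T
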