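import Mathlib
import Cfsg.Agent.M23T.Defs
import Cfsg.Agent.GT.PGroupElemAb

/-! Elementary abelian groups of order 9 and 27 from explicit generators. -/

set_option autoImplicit false

namespace Cfsg.Agent.M23T

open Subgroup Cfsg.Agent.GT

variable {G : Type*} [Group G] [Finite G] {a b c w₁ w₂ w₃ : G}

theorem k0_le {E : Subgroup G} {x t : G} (h : E ≤ centralizer ({t} : Set G)) (hx : Commute t x) :
    E ⊔ zpowers x ≤ centralizer ({t} : Set G) :=
  sup_le h (zpowers_le.2 (mem_centralizer_singleton_iff.2 hx.symm.eq))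

theorem k0_step {E : Subgroup G} {x w : G} (h : IsElementaryAbelian 3 E) (x3 : x ^ 3 = 1)
    (hx : E ≤ centralizer ({x} : Set G)) (hw : E ≤ centralizer ({w} : Set G)) (hn : ¬ Commute w x) :
    IsElementaryAbelian 3 (E ⊔ zpowers x) ∧ Nat.card (E ⊔ zpowers x : Subgroup G) = 3 * Nat.card E := by
  have hc : x ∈ centralizer (E : Set G) := mem_centralizer_iff.2 fun y hy => mem_centralizer_singleton_iff.1 (hx hy)
  exact ⟨h.sup_zpowers x3 hc, PG.card_sup_zpowers Nat.prime_three (centralizer_le_normalizer _ hc)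
    (fun k => hn (mem_centralizer_singleton_iff.1 (hw k)).symm) (x3 ▸ one_mem _)⟩

theorem k0_nine (a3 : a ^ 3 = 1) (b3 : b ^ 3 = 1) (ba : Commute b a) (h1 : ¬ Commute w₁ a) (h2 : Commute w₂ a)
    (h2' : ¬ Commute w₂ b) : ∃ E : Subgroup G, E9 E ∧ ∀ t, Commute t a → Commute t b → E ≤ centralizer ({t} : Set G) := by
  have e0 : IsElementaryAbelian 3 (⊥ : Subgroup G) := ⟨inferInstance, fun x hx => by rw [mem_bot.1 hx, one_pow]⟩
  obtain ⟨e1, c1⟩ := k0_step e0 a3 bot_le bot_le h1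
  obtain ⟨e2, c2⟩ := k0_step e1 b3 (k0_le bot_le ba) (k0_le bot_le h2) h2'
  exact ⟨_, ⟨e2, by rw [c2, c1, card_bot]⟩, fun t ta tb => k0_le (k0_le bot_le ta) tb⟩

theorem k0_e27 (a3 : a ^ 3 = 1) (b3 : b ^ 3 = 1) (c3 : c ^ 3 = 1) (ba : Commute b a) (ca : Commute c a)
    (cb : Commute c b) (h1 : ¬ Commute w₁ a) (h2 : Commute w₂ a) (h2' : ¬ Commute w₂ b) (h3 : Commute w₃ a)
    (h3' : Commute w₃ b) (h3'' : ¬ Commute w₃ c) : ∃ E : Subgroup G, IsElementaryAbelian 3 E ∧ Nat.card E = 27 ∧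
      ∀ t, Commute t a → Commute t b → Commute t c → E ≤ centralizer ({t} : Set G) := by
  obtain ⟨E, e, k⟩ := k0_nine a3 b3 ba h1 h2 h2'
  obtain ⟨e2, c2⟩ := k0_step e.elem c3 (k c ca cb) (k w₃ h3 h3') h3''
  exact ⟨_, e2, by rw [c2, e.card], fun t ta tb tc => k0_le (k t ta tb) tc⟩

end Cfsg.Agent.M23T
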