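import Mathlib
import Cfsg.Agent.M23T.K0
import Cfsg.Agent.W2.L43Model

/-! `A₉` is not of characteristic 2 type; an involution of `L₄(3)` centralising elements of order 5. -/

set_option autoImplicit false

namespace Cfsg.Agent.M23T

open Subgroup Cfsg.Agent.GT Cfsg.Agent.LX Cfsg.Agent.Gr6

theorem k1_aux {H : Type*} [Group H] [Finite H] (hc : IsOfCharacteristicTwo H) {t f s : H} (t1 : t ≠ 1)
    (t2 : t ^ 2 = 1) (tc : ∀ x, Commute t x) (f1 : f ≠ 1) (f5 : f ^ 5 = 1) (s4 : s ^ 4 = 1)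
    (sf : s ^ 2 * f * (s ^ 2)⁻¹ * f⁻¹ = f ^ 3) (hH : Nat.card H ∣ 181440) : False := by
  have : Fact (Nat.Prime 5) := ⟨by norm_num⟩
  have hQ := isPGroup_pCore (G := H) 2
  have fo : orderOf f = 5 := orderOf_eq_prime f5 f1
  have fQ : f ∉ pCore 2 H := fun k => by
    obtain ⟨n, hn⟩ := hQ.exists_card_eq
    have := (pCore 2 H).orderOf_dvd_natCard k
    rw [fo, hn] at this
    exact absurd ((Nat.prime_five.dvd_of_dvd_pow this)) (by norm_num)
  have sQ : s ^ 2 ∉ pCore 2 H := fun k => fQ (by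
    have h3 : f ^ 3 ∈ pCore 2 H := by
      rw [← sf, mul_assoc, mul_assoc, ← mul_assoc f]
      exact mul_mem k ((inferInstance : (pCore 2 H).Normal).conj_mem _ (inv_mem k) f)
    have := pow_mem h3 2
    rwa [← pow_mul, show 3 * 2 = 5 + 1 from rfl, pow_succ, f5, one_mul] at this)
  have i4 : 4 ∣ (pCore 2 H).index := by
    have : orderOf (QuotientGroup.mk s : H ⧸ pCore 2 H) = 2 ^ (1 + 1) := orderOf_eq_prime_pow
      (by rw [pow_one, ← QuotientGroup.mk_pow, QuotientGroup.eq_one_iff]; exact sQ)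
      (by rw [← QuotientGroup.mk_pow]; exact congrArg _ s4)
    exact (show 4 = 2 ^ (1 + 1) from rfl) ▸ this ▸ orderOf_dvd_natCard _
  have tQ : t ∈ pCore 2 H := hc (mem_centralizer_iff.2 fun x _ => (tc x).symm.eq)
  obtain ⟨n, hn⟩ := hQ.exists_card_eq
  have n4 : n ≤ 4 := by
    have h1 : 2 ^ n * 4 ∣ 181440 := ((Nat.mul_dvd_mul_left _ i4).trans (by rw [← hn, card_mul_index])).trans hH
    by_contra k
    exact absurd ((Nat.mul_dvd_mul_right (pow_dvd_pow 2 (show 5 ≤ n by omega)) 4).trans h1) (by norm_num)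
  let φ : zpowers f →* MulAut (pCore 2 H) := (MulAut.conjNormal (H := pCore 2 H)).comp (zpowers f).subtype
  letI : MulDistribMulAction (zpowers f) (pCore 2 H) := MulDistribMulAction.compHom _ φ
  have hp : IsPGroup 5 (zpowers f) := IsPGroup.of_card (n := 1) (by rw [Nat.card_zpowers, fo]; rfl)
  have h1 := hp.card_modEq_card_fixedPoints (pCore 2 H)
  have h2 : Nat.card (FixedPoints.subgroup (zpowers f) (pCore 2 H)) ∣ 2 ^ n := hn ▸ card_subgroup_dvd_card _
  obtain ⟨k, hk, e⟩ := (Nat.dvd_prime_pow Nat.prime_two).1 h2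
  have k0 : k ≠ 0 := fun k0 => by
    rw [k0, pow_zero, card_eq_one] at e
    have : (⟨t, tQ⟩ : pCore 2 H) ∈ FixedPoints.subgroup (zpowers f) (pCore 2 H) := fun x =>
      Subtype.ext (show (x : H) * t * (x : H)⁻¹ = t by rw [← (tc x).eq, mul_inv_cancel_right])
    rw [e, mem_bot] at this
    exact t1 (congrArg Subtype.val this)
  have h3 : 2 ^ n ≡ 2 ^ k [MOD 5] := by rw [← hn, ← e]; exact h1
  obtain rfl : k = n := by
    interval_cases n <;> interval_cases k <;> first | rfl | exact absurd rfl k0 | exact absurd h3 (by decide)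
  have := eq_top_of_card_eq _ (e.trans hn.symm)
  refine fQ (hc (mem_centralizer_iff.2 fun x hx => ?_))
  have h4 : (⟨x, hx⟩ : pCore 2 H) ∈ FixedPoints.subgroup (zpowers f) (pCore 2 H) := this ▸ mem_top _
  have h5 : f * x * f⁻¹ = x := congrArg Subtype.val (h4 ⟨f, mem_zpowers f⟩)
  rw [← h5, inv_mul_cancel_right, h5]

theorem not_c2_A9 {G : Type*} [Group G] [Finite G] (c2 : IsCharacteristicTwoType G)
    (e : G ≃* alternatingGroup (Fin 9)) : False := by
  classical
  let t : alternatingGroup (Fin 9) := ⟨c[0, 1] * c[2, 3], Equiv.Perm.mem_alternatingGroup.2 (by decide)⟩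
  let f : alternatingGroup (Fin 9) := ⟨c[4, 5, 6, 7, 8], Equiv.Perm.mem_alternatingGroup.2 (by decide)⟩
  let s : alternatingGroup (Fin 9) := ⟨c[0, 1] * c[5, 6, 8, 7], Equiv.Perm.mem_alternatingGroup.2 (by decide)⟩
  have t1 : e.symm t ≠ 1 := by rw [Ne, map_eq_one_iff _ e.symm.injective]; decide
  have t2 : e.symm t ^ 2 = 1 := by rw [← map_pow, show t ^ 2 = 1 by decide, map_one]
  have to2 : orderOf (e.symm t) = 2 := orderOf_eq_prime t2 t1
  have hm : ∀ x, Commute (e.symm t) x → x ∈ normalizer (zpowers (e.symm t) : Set G) := fun x hx =>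
    centralizer_le_normalizer _ (mem_centralizer_iff.2 (by rintro _ ⟨k, rfl⟩; exact (hx.zpow_left k).eq))
  have hc := c2.2 (zpowers (e.symm t)) (IsPGroup.of_card (n := 1) (by rw [Nat.card_zpowers, to2]; rfl))
    (by rwa [Ne, zpowers_eq_bot])
  refine k1_aux hc (t := ⟨_, hm _ (Commute.refl _)⟩) (f := ⟨e.symm f, hm _ (Commute.map (show t * f = f * t by decide +kernel) e.symm)⟩)
    (s := ⟨e.symm s, hm _ (Commute.map (show t * s = s * t by decide +kernel) e.symm)⟩) (fun k => t1 (congrArg Subtype.val k)) (Subtype.ext t2)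
    (fun x => Subtype.ext ?_) (fun k => ?_) (Subtype.ext ?_) (Subtype.ext ?_) (Subtype.ext ?_) ?_
  · have h1 := (mem_normalizer_iff.1 x.2 _).1 (mem_zpowers (e.symm t))
    rw [mem_zpowers_iff_mem_range_orderOf, to2] at h1
    obtain ⟨k, hk, h2⟩ := Finset.mem_image.1 h1
    have hk := Finset.mem_range.1 hk
    interval_cases k
    · exact absurd (conj_eq_one_iff.1 (h2.symm.trans (pow_zero _))) t1
    · change e.symm t * x = x * e.symm t
      rw [pow_one] at h2
      exact eq_mul_inv_iff_mul_eq.1 h2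
  · exact absurd ((map_eq_one_iff _ e.symm.injective).1 (congrArg Subtype.val k)) (by decide)
  · change e.symm f ^ 5 = 1
    rw [← map_pow, show f ^ 5 = 1 by decide +kernel, map_one]
  · change e.symm s ^ 4 = 1
    rw [← map_pow, show s ^ 4 = 1 by decide +kernel, map_one]
  · change e.symm s ^ 2 * e.symm f * (e.symm s ^ 2)⁻¹ * (e.symm f)⁻¹ = e.symm f ^ 3
    simp only [← map_pow, ← map_inv, ← map_mul]
    exact congrArg _ (by decide +kernel)
  · refine (card_subgroup_dvd_card _).trans ?_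
    have := two_mul_card_alternatingGroup (α := Fin 9)
    rw [Fintype.card_perm, Fintype.card_fin, ← Nat.card_eq_fintype_card] at this
    rw [Nat.card_congr e.toEquiv, show Nat.card (alternatingGroup (Fin 9)) = 181440 by
      rw [show Nat.factorial 9 = 362880 from rfl] at this; omega]

open W2.L43 in
theorem l43_five : ∃ t : Matrix.ProjectiveSpecialLinearGroup (Fin 4) (ZMod 3), Z9 t ∧
    5 ∣ Nat.card (centralizer ({t} : Set (Matrix.ProjectiveSpecialLinearGroup (Fin 4) (ZMod 3)))) := by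
  have : Fact (Nat.Prime 5) := ⟨by norm_num⟩
  let T : SL43 := ⟨!![0, -1, 0, 0; 1, 0, 0, 0; 0, 0, 0, -1; 0, 0, 1, 0], by decide +kernel⟩
  let A : SL43 := ⟨!![1, 0, 1, 0; 0, 1, 0, 1; 0, 0, 1, 0; 0, 0, 0, 1], by decide +kernel⟩
  let B : SL43 := ⟨!![1, 0, 0, -1; 0, 1, 1, 0; 0, 0, 1, 0; 0, 0, 0, 1], by decide +kernel⟩
  let F : SL43 := ⟨!![0, 0, -1, 0; 0, 0, 0, -1; 1, 0, 1, 1; 0, 1, -1, 1], by decide +kernel⟩
  let W : SL43 := ⟨!![1, 1, 0, 0; 0, 1, 0, 0; 0, 0, 1, 1; 0, 0, 0, 1], by decide +kernel⟩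
  let W' : SL43 := ⟨!![1, 1, 0, 0; 0, 1, 0, 0; 0, 0, 1, 0; 0, 0, 0, 1], by decide +kernel⟩
  have ne : ∀ X Y : SL43, Y.1 * X.1 ≠ X.1 * Y.1 → pr X ≠ 1 := fun X Y h k =>
    h (congrArg Subtype.val (mem_center_iff.1 ((QuotientGroup.eq_one_iff _).1 k) Y))
  have nc : ∀ X Y C Z : SL43, X.1 * Y.1 = C.1 * (Y.1 * X.1) → Z.1 * C.1 ≠ C.1 * Z.1 → ¬ Commute (pr X) (pr Y) :=
    fun X Y C Z h h' k => ne C Z h' (by
      have := congrArg pr (show X * Y = C * (Y * X) from Subtype.ext h)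
      rwa [map_mul, map_mul, map_mul, k.eq, right_eq_mul] at this)
  have cm : ∀ X Y : SL43, X.1 * Y.1 = Y.1 * X.1 → Commute (pr X) (pr Y) := fun X Y h =>
    Commute.map (show X * Y = Y * X from Subtype.ext h) pr
  have p3 : ∀ X : SL43, X.1 * (X.1 * X.1) = 1 → pr X ^ 3 = 1 := fun X h => by
    rw [← map_pow, pow_three, show X * (X * X) = 1 from Subtype.ext h, map_one]
  obtain ⟨E, e, k⟩ := k0_nine (p3 A (by decide +kernel)) (p3 B (by decide +kernel)) (cm B A (by decide +kernel))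
    (nc W' A ⟨!![1, 0, 0, 1; 0, 1, 0, 0; 0, 0, 1, 0; 0, 0, 0, 1], by decide +kernel⟩ F (by decide +kernel) (by decide +kernel))
    (cm W A (by decide +kernel))
    (nc W B ⟨!![1, 0, 1, -1; 0, 1, 0, -1; 0, 0, 1, 0; 0, 0, 0, 1], by decide +kernel⟩ F (by decide +kernel) (by decide +kernel))
  refine ⟨pr T, ⟨orderOf_eq_prime ?_ (ne T W (by decide +kernel)), E, e,
    k _ (cm T A (by decide +kernel)) (cm T B (by decide +kernel))⟩, ?_⟩
  · rw [← map_pow, pow_two, show T * T = -1 from Subtype.ext (show T.1 * T.1 = -1 by decide +kernel), pr_neg, map_one]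
  · have : orderOf (pr F) = 5 := orderOf_eq_prime (by
      rw [← map_pow, show F ^ 5 = F * F * F * F * F by simp only [pow_succ, pow_zero, one_mul],
        show F * F * F * F * F = 1 from Subtype.ext (show F.1 * F.1 * F.1 * F.1 * F.1 = 1 by decide +kernel), map_one])
      (ne F W (by decide +kernel))
    exact this ▸ Subgroup.orderOf_dvd_natCard _ (mem_centralizer_singleton_iff.2 (cm F T (by decide +kernel)).eq)

end Cfsg.Agent.M23T
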