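import Mathlib
import Cfsg.Agent.M23T.K0
import Cfsg.Agent.Cl.UField

/-! Elementary abelian groups of order 27 in unitary groups over `F₄` and in `Sp₆(2)`. -/

set_option autoImplicit false

namespace Cfsg.Agent.M23T

open Subgroup Cfsg.Agent.GT Cfsg.Agent.LX Cfsg.Agent.Gr6

section
variable {F : Type*} [Field F] {m : ℕ}

/-- A diagonal element of `SU`. -/
def k2D (d : Fin m → F) (h : (∀ i, d i ^ 3 = 1) ∧ ∏ i, d i = 1) : SU m F 2 :=
  ⟨⟨Matrix.diagonal d, by rw [Matrix.det_diagonal, h.2]⟩, fun u v => Finset.sum_congr rfl fun i _ => by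
    change (Matrix.diagonal d).mulVec u i * (Matrix.diagonal d).mulVec v i ^ 2 = _
    rw [Matrix.mulVec_diagonal, Matrix.mulVec_diagonal]
    linear_combination u i * v i ^ 2 * h.1 i⟩

/-- A permutation matrix in `SU`. -/
def k2P [CharP F 2] (s : Equiv.Perm (Fin m)) : SU m F 2 :=
  ⟨⟨s.permMatrix F, by
    rw [Matrix.det_permutation]
    rcases Int.units_eq_one_or (Equiv.Perm.sign s) with e | e <;> simp [e, CharTwo.neg_eq]⟩, fun u v => by
    change ∑ i, (s.permMatrix F).mulVec u i * (s.permMatrix F).mulVec v i ^ 2 = _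
    simp only [Matrix.permMatrix_mulVec]
    exact Equiv.sum_comp s fun i => u i * v i ^ 2⟩

theorem k2D_mul {d d' d'' : Fin m → F} (h h' h'') (e : ∀ i, d i * d' i = d'' i) : k2D d h * k2D d' h' = k2D d'' h'' :=
  Subtype.ext (Subtype.ext (by
    change Matrix.diagonal d * Matrix.diagonal d' = Matrix.diagonal d''
    rw [Matrix.diagonal_mul_diagonal]; exact congrArg _ (funext e)))

theorem k2D_one (h) : k2D (fun _ : Fin m => (1 : F)) h = 1 := Subtype.ext (Subtype.ext Matrix.diagonal_one)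

theorem k2D_cube {d : Fin m → F} (h) : k2D d h ^ 3 = 1 := by
  rw [← k2D_one (by simp), pow_three, k2D_mul h h (d'' := fun i => d i * d i) ⟨fun i => by rw [mul_pow, h.1, mul_one],
    by rw [Finset.prod_mul_distrib, h.2, mul_one]⟩ fun _ => rfl]
  exact k2D_mul _ _ _ fun i => by rw [← h.1 i]; ring

theorem k2D_comm {d d' : Fin m → F} (h h') : Commute (k2D d h) (k2D d' h') := by
  have k : (∀ i, (d i * d' i) ^ 3 = 1) ∧ ∏ i, d i * d' i = 1 := ⟨fun i => by rw [mul_pow, h.1, h'.1, mul_one],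
    by rw [Finset.prod_mul_distrib, h.2, h'.2, mul_one]⟩
  exact (k2D_mul h h' k fun _ => rfl).trans (k2D_mul h' h k fun _ => mul_comm _ _).symm

variable [CharP F 2]

theorem k2P_mul (s : Equiv.Perm (Fin m)) {d : Fin m → F} (h) :
    k2P s * k2D d h = k2D (d ∘ s) ⟨fun _ => h.1 _, (Equiv.prod_comp s d).trans h.2⟩ * k2P s :=
  Subtype.ext (Subtype.ext (by
    change s.permMatrix F * Matrix.diagonal d = Matrix.diagonal (d ∘ s) * s.permMatrix F
    ext i j
    by_cases e : s i = j <;> simp [Matrix.mul_diagonal, Matrix.diagonal_mul, PEquiv.toMatrix_apply, e]))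

theorem k2_comm_iff {i j : Fin m} {d : Fin m → F} (h) : Commute (k2P (Equiv.swap i j)) (k2D d h) ↔ d i = d j := by
  rw [Commute, SemiconjBy, k2P_mul, mul_left_inj]
  refine ⟨fun e => ?_, fun e => ?_⟩
  · have : Matrix.diagonal (d ∘ Equiv.swap i j) = Matrix.diagonal d := congrArg (fun x : SU m F 2 => x.1.1) e
    simpa using (congrFun (Matrix.diagonal_injective this) i).symm
  · congr 1
    funext x
    rcases eq_or_ne x i with rfl | h1
    · simp [e]
    rcases eq_or_ne x j with rfl | h2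
    · simp [e]
    simp [Equiv.swap_apply_of_ne_of_ne h1 h2]

theorem k2_not_comm {i j k : Fin m} (hi : k ≠ i) (hj : k ≠ j) {d : Fin m → F} (h) (e : d i ≠ d j) :
    ¬ Commute (QuotientGroup.mk (k2P (Equiv.swap i j)) : PSU m F 2) (QuotientGroup.mk (k2D d h)) := fun c => by
  have h' : (∀ x, (d ∘ Equiv.swap i j) x ^ 3 = 1) ∧ ∏ x, (d ∘ Equiv.swap i j) x = 1 :=
    ⟨fun _ => h.1 _, (Equiv.prod_comp _ d).trans h.2⟩
  have h2 : (∀ x, (d x * d x) ^ 3 = 1) ∧ ∏ x, d x * d x = 1 := ⟨fun i => by rw [mul_pow, h.1, mul_one],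
    by rw [Finset.prod_mul_distrib, h.2, mul_one]⟩
  have h3 : (∀ x, ((d ∘ Equiv.swap i j) x * (d x * d x)) ^ 3 = 1) ∧ ∏ x, (d ∘ Equiv.swap i j) x * (d x * d x) = 1 :=
    ⟨fun i => by rw [mul_pow, h'.1, h2.1, mul_one], by rw [Finset.prod_mul_distrib, h'.2, h2.2, mul_one]⟩
  have c1 := c.eq
  rw [← QuotientGroup.mk_mul, k2P_mul, QuotientGroup.mk_mul, mul_left_inj] at c1
  have c2 : (QuotientGroup.mk (k2D _ h3) : PSU m F 2) = 1 := by
    rw [← k2D_mul h' h2 h3 fun _ => rfl, ← k2D_mul h h h2 fun _ => rfl, QuotientGroup.mk_mul, c1,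
      ← QuotientGroup.mk_mul, ← pow_three, k2D_cube, QuotientGroup.mk_one]
  have := (k2_comm_iff (i := i) (j := k) h3).1 (mem_center_iff.1 ((QuotientGroup.eq_one_iff _).1 c2) _)
  simp only [Function.comp, Equiv.swap_apply_left, Equiv.swap_apply_of_ne_of_ne hi hj] at this
  exact e (by linear_combination d j * h.1 i - d i * this - d i * h.1 k)

end

theorem psu_e27 {F : Type*} [Field F] [Fintype F] (hF : Fintype.card F = 4) {m : ℕ} (hm : 5 ≤ m) :
    ∃ (t : PSU m F 2) (E : Subgroup (PSU m F 2)), orderOf t = 2 ∧ IsElementaryAbelian 3 E ∧ Nat.card E = 27 ∧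
      E ≤ centralizer ({t} : Set (PSU m F 2)) := by
  classical
  obtain ⟨p, k, hp, _, hk, e⟩ := Cl.u_exists_prime_pow (F := F) (q := 2) (by rw [Nat.card_eq_fintype_card, hF]; rfl)
  obtain rfl : p = 2 := (Nat.prime_dvd_prime_iff_eq hp Nat.prime_two).1 (e ▸ dvd_pow_self p (by omega))
  obtain ⟨ω, hω⟩ := IsCyclic.exists_ofOrder_eq_natCard (α := Fˣ)
  rw [Nat.card_units, Nat.card_eq_fintype_card, hF] at hω
  replace hω : orderOf ω = 3 := hω
  have o3 : (ω : F) ^ 3 = 1 := by rw [← Units.val_pow_eq_pow_val, ← hω, pow_orderOf_eq_one, Units.val_one]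
  have o1 : (ω : F) ≠ 1 := fun k => by rw [Units.val_eq_one.1 k] at hω; simp at hω
  have hd : ∀ i j k : Fin m, i ≠ j → i ≠ k → j ≠ k → (∀ x, (if x ∈ ({i, j, k} : Finset (Fin m)) then (ω : F) else 1) ^ 3 = 1) ∧
      ∏ x, (if x ∈ ({i, j, k} : Finset (Fin m)) then (ω : F) else 1) = 1 := fun i j k h1 h2 h3 =>
    ⟨fun x => by split_ifs <;> simp [o3], by
      rw [Finset.prod_ite_mem, Finset.univ_inter, Finset.prod_const, Finset.card_eq_three.2 ⟨i, j, k, h1, h2, h3, rfl⟩, o3]⟩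
  let x : Fin 5 → Fin m := Fin.castLE hm
  have hx : ∀ i j, x i = x j ↔ i = j := fun i j => (Fin.castLE_injective hm).eq_iff
  let π := QuotientGroup.mk' (center (SU m F 2))
  obtain ⟨E, e1, e2, e3⟩ := k0_e27 (a := π (k2D _ (hd (x 0) (x 1) (x 2) (by simp [hx]) (by simp [hx]) (by simp [hx]))))
    (b := π (k2D _ (hd (x 0) (x 3) (x 4) (by simp [hx]) (by simp [hx]) (by simp [hx]))))
    (c := π (k2D _ (hd (x 1) (x 3) (x 4) (by simp [hx]) (by simp [hx]) (by simp [hx]))))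
    (w₁ := π (k2P (Equiv.swap (x 2) (x 3)))) (w₂ := π (k2P (Equiv.swap (x 0) (x 1))))
    (w₃ := π (k2P (Equiv.swap (x 1) (x 2))))
    (by rw [← map_pow, k2D_cube, map_one]) (by rw [← map_pow, k2D_cube, map_one]) (by rw [← map_pow, k2D_cube, map_one])
    ((k2D_comm _ _).map π) ((k2D_comm _ _).map π) ((k2D_comm _ _).map π)
    (k2_not_comm (k := x 0) (by simp [hx]) (by simp [hx]) _ (by simpa [hx] using o1))
    (((k2_comm_iff _).2 (by simp)).map π) (k2_not_comm (k := x 2) (by simp [hx]) (by simp [hx]) _ (by simpa [hx] using o1))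
    (((k2_comm_iff _).2 (by simp)).map π) (((k2_comm_iff _).2 (by simp [hx])).map π)
    (k2_not_comm (k := x 0) (by simp [hx]) (by simp [hx]) _ (by simpa [hx] using o1))
  refine ⟨π (k2P (Equiv.swap (x 3) (x 4))), E, orderOf_eq_prime ?_ fun k => ?_, e1, e2,
    e3 _ (((k2_comm_iff _).2 (by simp [hx])).map π) (((k2_comm_iff _).2 (by simp)).map π)
      (((k2_comm_iff _).2 (by simp)).map π)⟩
  · rw [← map_pow, pow_two, show k2P (F := F) (Equiv.swap (x 3) (x 4)) * k2P (Equiv.swap (x 3) (x 4)) = 1 from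
      Subtype.ext (Subtype.ext ?_), map_one]
    change (Equiv.swap (x 3) (x 4)).permMatrix F * (Equiv.swap (x 3) (x 4)).permMatrix F = 1
    rw [← Matrix.permMatrix_mul, Equiv.swap_mul_self, Matrix.permMatrix_one]
  · refine k2_not_comm (i := x 3) (j := x 4) (k := x 0) (by simp [hx]) (by simp [hx])
      (hd (x 0) (x 1) (x 3) (by simp [hx]) (by simp [hx]) (by simp [hx])) (by simpa [hx] using o1) ?_
    rw [show (QuotientGroup.mk (k2P (Equiv.swap (x 3) (x 4))) : PSU m F 2) = 1 from k]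
    exact Commute.one_left _

/-- The matrix acting as `[[a, b], [c, d]]` on the `i`-th hyperbolic plane. -/
def k2M (i : Fin 3) (a b c d : ZMod 2) : Matrix (Fin 3 ⊕ Fin 3) (Fin 3 ⊕ Fin 3) (ZMod 2) :=
  Matrix.fromBlocks (Matrix.diagonal fun j => if j = i then a else 1) (Matrix.diagonal fun j => if j = i then b else 0)
    (Matrix.diagonal fun j => if j = i then c else 0) (Matrix.diagonal fun j => if j = i then d else 1)

theorem sp6_e27 : ¬ PRankLE 3 2 (Matrix.symplecticGroup (Fin 3) (ZMod 2)) := fun h => by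
  have m1 : ∀ i, k2M i 0 1 1 1 ∈ Matrix.symplecticGroup (Fin 3) (ZMod 2) := fun i => by
    rw [SymplecticGroup.mem_iff]; revert i; decide +kernel
  have m2 : ∀ i, k2M i 1 1 0 1 ∈ Matrix.symplecticGroup (Fin 3) (ZMod 2) := fun i => by
    rw [SymplecticGroup.mem_iff]; revert i; decide +kernel
  let s : Fin 3 → Matrix.symplecticGroup (Fin 3) (ZMod 2) := fun i => ⟨_, m1 i⟩
  let w : Fin 3 → Matrix.symplecticGroup (Fin 3) (ZMod 2) := fun i => ⟨_, m2 i⟩
  have s3 : ∀ i, s i ^ 3 = 1 := fun i => by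
    rw [pow_three]
    refine Subtype.ext (show k2M i 0 1 1 1 * (k2M i 0 1 1 1 * k2M i 0 1 1 1) = 1 from ?_)
    revert i; decide +kernel
  have ss : ∀ i j, Commute (s i) (s j) := fun i j =>
    Subtype.ext (show k2M i 0 1 1 1 * k2M j 0 1 1 1 = k2M j 0 1 1 1 * k2M i 0 1 1 1 by revert i j; decide +kernel)
  have ws : ∀ i j, Commute (w i) (s j) ↔ i ≠ j := fun i j => Subtype.ext_iff.trans
    (show k2M i 1 1 0 1 * k2M j 0 1 1 1 = k2M j 0 1 1 1 * k2M i 1 1 0 1 ↔ _ by revert i j; decide +kernel)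
  obtain ⟨E, e1, e2, -⟩ := k0_e27 (s3 0) (s3 1) (s3 2) (ss _ _) (ss _ _) (ss _ _) (w₁ := w 0) (w₂ := w 1) (w₃ := w 2)
    (by simp [ws]) (by simp [ws]) (by simp [ws]) (by simp [ws]) (by simp [ws]) (by simp [ws])
  have := h E e1.1 e1.2
  omega

end Cfsg.Agent.M23T
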